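import Cfsg.Agent.H570.FamA

/-!
Elimination of the symplectic, orthogonal and unitary groups, numerical part; `PSL_2`.
-/

set_option autoImplicit false

namespace Cfsg.Agent.H570.Fam

open Cfsg.Agent.H570.Data Cfsg.Agent.H570.Chk Cfsg.Agent.H570.Ineq

theorem dvd_b {p m q : ℕ} (hp : p.Prime) (hq : 2 ≤ q)
    (h : p ∣ ∏ i ∈ Finset.range m, (q ^ (2 * (i + 1)) - 1)) : p ≤ q ^ m + 1 := by
  obtain ⟨i, hi, h1⟩ := (hp.prime.dvd_finsetProd_iff _).1 h
  rw [Finset.mem_range] at hi
  have h2 := prime_le_of_dvd_sub_one hp hq (by omega) h1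
  have h3 : q ^ (i + 1) ≤ q ^ m := Nat.pow_le_pow_right (by omega) (by omega)
  omega

/-- symplectic groups -/
theorem psp {p e m q o : ℕ} (hp : p.Prime) (hq : IsPrimePow q) (hm : 2 ≤ m) (hm2 : m = 2 → 3 ≤ q)
    (ho : Nat.gcd 2 (q - 1) * o = q ^ (m ^ 2) * ∏ i ∈ Finset.range m, (q ^ (2 * (i + 1)) - 1))
    (hd : p ∣ o) (hsq : ¬ p ^ 2 ∣ o) (h : Num p e o) (he : ¬ p ∣ q → e ≤ 2 * m) : False := by
  have hq2 : 2 ≤ q := hq.two_le
  have hpq : ¬ p ∣ q := by
    have h1 : 2 * 2 ≤ m ^ 2 := by rw [sq]; exact Nat.mul_le_mul hm hm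
    refine cop_of (E := m ^ 2) hsq (by omega) (coprime_gcd_sub (n := 2) hq2) ?_
    rw [ho]
    exact Dvd.intro _ rfl
  replace he := he hpq
  have hpX : p ≤ q ^ m + 1 := by
    have h1 : p ∣ q ^ (m ^ 2) * ∏ i ∈ Finset.range m, (q ^ (2 * (i + 1)) - 1) := by
      rw [← ho]; exact dvd_mul_of_dvd_right hd _
    rcases (hp.dvd_mul).1 h1 with h2 | h2
    · exact absurd (hp.dvd_of_dvd_pow h2) hpq
    · exact dvd_b hp hq2 h2
  have hlow : q ^ (m ^ 2) * q ^ (m ^ 2) ≤ 2 * o := by
    calc q ^ (m ^ 2) * q ^ (m ^ 2) ≤ q ^ (m ^ 2) * ∏ i ∈ Finset.range m, (q ^ (2 * (i + 1)) - 1) :=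
          Nat.mul_le_mul_left _ (prod_b_ge hq2)
      _ = Nat.gcd 2 (q - 1) * o := ho.symm
      _ ≤ 2 * o := Nat.mul_le_mul_right _ (Nat.le_of_dvd (by norm_num) (Nat.gcd_dvd_left _ _))
  rcases Nat.lt_or_ge m 3 with hm3 | hm3
  · obtain rfl : m = 2 := by omega
    have hq3 := hm2 rfl
    rcases Nat.lt_or_ge q 10 with hq10 | hq10
    · rw [Finset.prod_range_succ, Finset.prod_range_succ, Finset.prod_range_zero] at ho
      rcases q_list hq (by omega) with rfl | rfl | rfl | rfl | rfl | rfl | rfl | rfl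
      · omega
      · have ho2 : o = 25920 := by norm_num at ho; omega
        exact no_num hp h he hpX (by rw [ho2]; norm_num) (Or.inr (by rw [ho2]; decide +kernel))
      · have ho2 : o = 979200 := by norm_num at ho; omega
        exact no_num hp h he hpX (by rw [ho2]; norm_num) (Or.inr (by rw [ho2]; decide +kernel))
      · have ho2 : o = 4680000 := by norm_num at ho; omega
        exact no_num hp h he hpX (by rw [ho2]; norm_num) (Or.inr (by rw [ho2]; decide +kernel))
      · have ho2 : o = 138297600 := by norm_num at ho; omega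
        exact no_num hp h he hpX (by rw [ho2]; norm_num) (Or.inr (by rw [ho2]; decide +kernel))
      · have ho2 : o = 1056706560 := by norm_num at ho; omega
        exact no_num hp h he hpX (by rw [ho2]; norm_num) (Or.inr (by rw [ho2]; decide +kernel))
      · have ho2 : o = 1721606400 := by norm_num at ho; omega
        exact no_num hp h he hpX (by rw [ho2]; norm_num) (Or.inr (by rw [ho2]; decide +kernel))
      · omega
    · have hq11 : 11 ≤ q := by
        rcases Nat.lt_or_ge q 11 with h5 | h5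
        · rcases q_list hq (by omega) with rfl | rfl | rfl | rfl | rfl | rfl | rfl | rfl <;> omega
        · exact h5
      refine no_num hp h he hpX ?_ (Or.inl ?_)
      · have h7 : 2 * (2 * 2 * (q ^ 2 + 1) ^ 3) ≤ 2 * o := by
          refine le_trans ?_ hlow
          calc 2 * (2 * 2 * (q ^ 2 + 1) ^ 3) ≤ 2 * (2 * 2 * (8 * q ^ (3 * 2))) := by
                gcongr; exact add_one_cube (by omega)
            _ = 64 * q ^ 6 := by ring
            _ ≤ (11 ^ 2) * q ^ 6 := by gcongr; norm_num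
            _ ≤ q ^ 2 * q ^ 6 := by gcongr
            _ = q ^ (2 ^ 2) * q ^ (2 ^ 2) := by ring
        omega
      · have h7 : 2 * (((2 * 2) ^ 2 + 1) ^ 5 * (2 * 2) ^ 3) ≤ 2 * o := by
          refine le_trans ?_ hlow
          calc 2 * (((2 * 2) ^ 2 + 1) ^ 5 * (2 * 2) ^ 3) ≤ 11 ^ (2 ^ 2) * 11 ^ (2 ^ 2) := by norm_num
            _ ≤ q ^ (2 ^ 2) * q ^ (2 ^ 2) := by gcongr
        omega
  · have hN : 2 * m * (q ^ m + 1) ^ 3 ≤ o := by
      have := (i3 hm3 hq2 (N := 2 * m) (by omega)).trans hlow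
      omega
    rcases Nat.lt_or_ge m 5 with hm5 | hm5
    · obtain rfl | rfl : m = 3 ∨ m = 4 := by omega
      · rcases Nat.lt_or_ge q 4 with hq4 | hq4
        · obtain rfl | rfl : q = 2 ∨ q = 3 := by omega
          · have hprod : ∏ i ∈ Finset.range 3, (2 ^ (2 * (i + 1)) - 1) = 2835 := by
              simp [Finset.prod_range_succ]
            rw [hprod] at ho
            have ho2 : o = 1451520 := by norm_num at ho; omega
            exact no_num hp h he hpX hN (Or.inr (by rw [ho2]; decide +kernel))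
          · have hprod : ∏ i ∈ Finset.range 3, (3 ^ (2 * (i + 1)) - 1) = 465920 := by
              simp [Finset.prod_range_succ]
            rw [hprod] at ho
            have ho2 : o = 4585351680 := by norm_num at ho; omega
            exact no_num hp h he hpX hN (Or.inr (by rw [ho2]; decide +kernel))
        · refine no_num hp h he hpX hN (Or.inl ?_)
          have h7 : 2 * (((2 * 3) ^ 2 + 1) ^ 5 * (2 * 3) ^ 3) ≤ 2 * o := by
            refine le_trans ?_ hlow
            calc 2 * (((2 * 3) ^ 2 + 1) ^ 5 * (2 * 3) ^ 3) ≤ 4 ^ (3 ^ 2) * 4 ^ (3 ^ 2) := by norm_num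
              _ ≤ q ^ (3 ^ 2) * q ^ (3 ^ 2) := by gcongr
          omega
      · rcases Nat.lt_or_ge q 3 with hq4 | hq4
        · obtain rfl : q = 2 := by omega
          have hprod : ∏ i ∈ Finset.range 4, (2 ^ (2 * (i + 1)) - 1) = 722925 := by
            simp [Finset.prod_range_succ]
          rw [hprod] at ho
          have ho2 : o = 47377612800 := by norm_num at ho; omega
          exact no_num hp h he hpX hN (Or.inr (by rw [ho2]; decide +kernel))
        · refine no_num hp h he hpX hN (Or.inl ?_)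
          have h7 : 2 * (((2 * 4) ^ 2 + 1) ^ 5 * (2 * 4) ^ 3) ≤ 2 * o := by
            refine le_trans ?_ hlow
            calc 2 * (((2 * 4) ^ 2 + 1) ^ 5 * (2 * 4) ^ 3) ≤ 3 ^ (4 ^ 2) * 3 ^ (4 ^ 2) := by norm_num
              _ ≤ q ^ (4 ^ 2) * q ^ (4 ^ 2) := by gcongr
          omega
    · refine no_num hp h he hpX hN (Or.inl ?_)
      have := (i4 hm5 hq2).trans hlow
      exact Nat.le_of_mul_le_mul_left this (by norm_num)

/-- odd-dimensional orthogonal groups -/
theorem oodd {p e m q o : ℕ} (hp : p.Prime) (hq : IsPrimePow q) (hm : 3 ≤ m) (hq1 : Odd q)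
    (ho : 2 * o = q ^ (m ^ 2) * ∏ i ∈ Finset.range m, (q ^ (2 * (i + 1)) - 1))
    (hd : p ∣ o) (hsq : ¬ p ^ 2 ∣ o) (h : Num p e o) (he : ¬ p ∣ q → e ≤ 2 * m + 1) : False := by
  have hq2 : 2 ≤ q := hq.two_le
  have hq3 : 3 ≤ q := by
    obtain ⟨k, hk⟩ := hq1
    omega
  have hpq : ¬ p ∣ q := by
    have h1 : 2 * 2 ≤ m ^ 2 := by rw [sq]; exact Nat.mul_le_mul (by omega) (by omega)
    refine cop_of (E := m ^ 2) (d := 2) hsq (by omega) ((Nat.coprime_two_left).2 hq1) ?_
    rw [ho]
    exact Dvd.intro _ rfl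
  replace he := he hpq
  have hpX : p ≤ q ^ m + 1 := by
    have h1 : p ∣ q ^ (m ^ 2) * ∏ i ∈ Finset.range m, (q ^ (2 * (i + 1)) - 1) := by
      rw [← ho]; exact dvd_mul_of_dvd_right hd _
    rcases (hp.dvd_mul).1 h1 with h2 | h2
    · exact absurd (hp.dvd_of_dvd_pow h2) hpq
    · exact dvd_b hp hq2 h2
  have hlow : q ^ (m ^ 2) * q ^ (m ^ 2) ≤ 2 * o := by
    rw [ho]
    exact Nat.mul_le_mul_left _ (prod_b_ge hq2)
  have hN : (2 * m + 1) * (q ^ m + 1) ^ 3 ≤ o := by
    have := (i3 hm hq2 (N := 2 * m + 1) (by omega)).trans hlow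
    exact Nat.le_of_mul_le_mul_left this (by norm_num)
  rcases Nat.lt_or_ge m 4 with hm4 | hm4
  · obtain rfl : m = 3 := by omega
    rcases Nat.lt_or_ge q 5 with hq5 | hq5
    · obtain rfl : q = 3 := by
        obtain ⟨k, hk⟩ := hq1
        omega
      have hprod : ∏ i ∈ Finset.range 3, (3 ^ (2 * (i + 1)) - 1) = 465920 := by
        simp [Finset.prod_range_succ]
      rw [hprod] at ho
      have ho2 : o = 4585351680 := by norm_num at ho; omega
      exact no_num hp h he hpX hN (Or.inr (by rw [ho2]; decide +kernel))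
    · refine no_num hp h he hpX hN (Or.inl ?_)
      have h7 : 2 * (((2 * 3 + 1) ^ 2 + 1) ^ 5 * (2 * 3 + 1) ^ 3) ≤ 2 * o := by
        refine le_trans ?_ hlow
        calc 2 * (((2 * 3 + 1) ^ 2 + 1) ^ 5 * (2 * 3 + 1) ^ 3) ≤ 5 ^ (3 ^ 2) * 5 ^ (3 ^ 2) := by norm_num
          _ ≤ q ^ (3 ^ 2) * q ^ (3 ^ 2) := by gcongr
      omega
  · refine no_num hp h he hpX hN (Or.inl ?_)
    have := (i4' hm4 hq3).trans hlow
    exact Nat.le_of_mul_le_mul_left this (by norm_num)

theorem low_d {m q x : ℕ} (hm : 4 ≤ m) (hq : 2 ≤ q) (hx : q ^ m ≤ x + 1) :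
    q ^ (2 * (m * (m - 1))) ≤ q ^ (m * (m - 1)) * (x * ∏ i ∈ Finset.range (m - 1), (q ^ (2 * (i + 1)) - 1)) := by
  obtain ⟨k, rfl⟩ : ∃ k, m = k + 1 := ⟨m - 1, by omega⟩
  rw [Nat.add_sub_cancel]
  have h1 : q ^ k ≤ x := by
    have h2 : q ^ (k + 1) = q ^ k * q := pow_succ _ _
    have h3 : q ^ k * 2 ≤ q ^ k * q := Nat.mul_le_mul_left _ hq
    have h4 : 1 ≤ q ^ k := Nat.one_le_pow _ _ (by omega)
    omega
  have h2 := prod_b_ge (m := k) hq
  calc q ^ (2 * ((k + 1) * k)) = q ^ ((k + 1) * k) * (q ^ k * q ^ (k ^ 2)) := by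
        rw [← pow_add, ← pow_add]; congr 1; ring
    _ ≤ _ := Nat.mul_le_mul_left _ (Nat.mul_le_mul h1 h2)

/-- even-dimensional orthogonal groups; `x = q ^ m ± 1` -/
theorem oeven {p e m q x o : ℕ} (hp : p.Prime) (hq : IsPrimePow q) (hm : 4 ≤ m)
    (hx : x + 1 = q ^ m ∨ x = q ^ m + 1)
    (ho : Nat.gcd 4 x * o = q ^ (m * (m - 1)) * (x * ∏ i ∈ Finset.range (m - 1), (q ^ (2 * (i + 1)) - 1)))
    (hd : p ∣ o) (hsq : ¬ p ^ 2 ∣ o) (h : Num p e o) (he : ¬ p ∣ q → e ≤ 2 * m) : False := by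
  have hq2 : 2 ≤ q := hq.two_le
  have hqm : 2 ≤ q ^ m := by
    calc 2 ≤ q := hq2
      _ = q ^ 1 := (pow_one q).symm
      _ ≤ q ^ m := Nat.pow_le_pow_right (by omega) (by omega)
  have hx0 : 0 < x := by omega
  have hxq : x.Coprime q := by
    have h1 : x.Coprime (q ^ m) := by
      rcases hx with hx | hx
      · rw [← hx]; exact (Nat.coprime_self_add_right).2 (Nat.coprime_one_right _)
      · rw [hx, Nat.coprime_comm]; exact (Nat.coprime_self_add_right).2 (Nat.coprime_one_right _)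
    exact Nat.Coprime.coprime_dvd_right (dvd_pow_self q (by omega)) h1
  have hpq : ¬ p ∣ q := by
    have h1 : 4 * 3 ≤ m * (m - 1) := Nat.mul_le_mul hm (by omega)
    refine cop_of (E := m * (m - 1)) hsq (by omega)
      (Nat.Coprime.coprime_dvd_left (Nat.gcd_dvd_right 4 x) hxq) ?_
    rw [ho]
    exact Dvd.intro _ rfl
  replace he := he hpq
  have hpX : p ≤ q ^ m + 1 := by
    have h1 : p ∣ q ^ (m * (m - 1)) * (x * ∏ i ∈ Finset.range (m - 1), (q ^ (2 * (i + 1)) - 1)) := by
      rw [← ho]; exact dvd_mul_of_dvd_right hd _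
    rcases (hp.dvd_mul).1 h1 with h2 | h2
    · exact absurd (hp.dvd_of_dvd_pow h2) hpq
    rcases (hp.dvd_mul).1 h2 with h2 | h2
    · have := Nat.le_of_dvd hx0 h2
      omega
    · have h3 := dvd_b hp hq2 h2
      have h4 : q ^ (m - 1) ≤ q ^ m := Nat.pow_le_pow_right (by omega) (by omega)
      omega
  have hlow : q ^ (2 * (m * (m - 1))) ≤ 4 * o := by
    calc _ ≤ _ := low_d hm hq2 (by omega : q ^ m ≤ x + 1)
      _ = Nat.gcd 4 x * o := ho.symm
      _ ≤ 4 * o := Nat.mul_le_mul_right _ (Nat.le_of_dvd (by norm_num) (Nat.gcd_dvd_left _ _))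
  have hN : 2 * m * (q ^ m + 1) ^ 3 ≤ o := by
    have := (i3' hm hq2).trans hlow
    exact Nat.le_of_mul_le_mul_left this (by norm_num)
  rcases Nat.lt_or_ge m 6 with hm6 | hm6
  · obtain rfl | rfl : m = 4 ∨ m = 5 := by omega
    · rcases Nat.lt_or_ge q 4 with hq4 | hq4
      · obtain rfl | rfl : q = 2 ∨ q = 3 := by omega
        · have hprod : ∏ i ∈ Finset.range (4 - 1), (2 ^ (2 * (i + 1)) - 1) = 2835 := by
            simp [Finset.prod_range_succ]
          rw [hprod] at ho
          rcases hx with hx | hx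
          · obtain rfl : x = 15 := by omega
            have ho2 : o = 174182400 := by norm_num at ho; omega
            exact no_num hp h he hpX hN (Or.inr (by rw [ho2]; decide +kernel))
          · obtain rfl : x = 17 := by omega
            have ho2 : o = 197406720 := by norm_num at ho; omega
            exact no_num hp h he hpX hN (Or.inr (by rw [ho2]; decide +kernel))
        · have hprod : ∏ i ∈ Finset.range (4 - 1), (3 ^ (2 * (i + 1)) - 1) = 465920 := by
            simp [Finset.prod_range_succ]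
          rw [hprod] at ho
          rcases hx with hx | hx
          · obtain rfl : x = 80 := by omega
            have ho2 : o = 4952179814400 := by norm_num at ho; omega
            exact no_num hp h he hpX hN (Or.inr (by rw [ho2]; decide +kernel))
          · obtain rfl : x = 82 := by omega
            have ho2 : o = 10151968619520 := by norm_num at ho; omega
            exact no_num hp h he hpX hN (Or.inr (by rw [ho2]; decide +kernel))
      · refine no_num hp h he hpX hN (Or.inl ?_)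
        have h7 : 4 * (((2 * 4) ^ 2 + 1) ^ 5 * (2 * 4) ^ 3) ≤ 4 * o := by
          refine le_trans ?_ hlow
          calc 4 * (((2 * 4) ^ 2 + 1) ^ 5 * (2 * 4) ^ 3) ≤ 4 ^ (2 * (4 * (4 - 1))) := by norm_num
            _ ≤ q ^ (2 * (4 * (4 - 1))) := by gcongr
        omega
    · rcases Nat.lt_or_ge q 3 with hq4 | hq4
      · obtain rfl : q = 2 := by omega
        have hprod : ∏ i ∈ Finset.range (5 - 1), (2 ^ (2 * (i + 1)) - 1) = 722925 := by
          simp [Finset.prod_range_succ]
        rw [hprod] at ho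
        rcases hx with hx | hx
        · obtain rfl : x = 31 := by omega
          have ho2 : o = 23499295948800 := by norm_num at ho; omega
          exact no_num hp h he hpX hN (Or.inr (by rw [ho2]; decide +kernel))
        · obtain rfl : x = 33 := by omega
          have ho2 : o = 25015379558400 := by norm_num at ho; omega
          exact no_num hp h he hpX hN (Or.inr (by rw [ho2]; decide +kernel))
      · refine no_num hp h he hpX hN (Or.inl ?_)
        have h7 : 4 * (((2 * 5) ^ 2 + 1) ^ 5 * (2 * 5) ^ 3) ≤ 4 * o := by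
          refine le_trans ?_ hlow
          calc 4 * (((2 * 5) ^ 2 + 1) ^ 5 * (2 * 5) ^ 3) ≤ 3 ^ (2 * (5 * (5 - 1))) := by norm_num
            _ ≤ q ^ (2 * (5 * (5 - 1))) := by gcongr
        omega
  · refine no_num hp h he hpX hN (Or.inl ?_)
    have := (i4'' hm6 hq2).trans hlow
    exact Nat.le_of_mul_le_mul_left this (by norm_num)

end Cfsg.Agent.H570.Fam
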