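import Cfsg.Agent.H570.FamB

/-!
Elimination of the unitary groups, numerical part; `PSL_2`.
-/

set_option autoImplicit false

namespace Cfsg.Agent.H570.Fam

open Cfsg.Agent.H570.Data Cfsg.Agent.H570.Chk Cfsg.Agent.H570.Ineq

theorem uf_le {q i n : ℕ} (hq : 2 ≤ q) (hi : i < n) : uf q i ≤ q ^ n + 1 := by
  unfold uf
  have h3 : q ^ (i + 1) ≤ q ^ n := Nat.pow_le_pow_right (by omega) (by omega)
  split_ifs <;> omega

theorem uf_pos {q i : ℕ} (hq : 2 ≤ q) : 0 < uf q i :=
  lt_of_lt_of_le (pow_pos (by omega) i) (uf_ge hq)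

set_option maxHeartbeats 1000000 in
/-- unitary groups -/
theorem psu {p e n q o : ℕ} (hp : p.Prime) (hq : IsPrimePow q) (hn : 3 ≤ n) (hn2 : ¬ (n = 3 ∧ q = 2))
    (ho : Nat.gcd n (q + 1) * ((q + 1) * o) = q ^ (n * (n - 1) / 2) * ∏ i ∈ Finset.range n, uf q i)
    (hd : p ∣ o) (hsq : ¬ p ^ 2 ∣ o) (h : Num p e o) (he : ¬ p ∣ q → e ≤ n) : False := by
  have hq2 : 2 ≤ q := hq.two_le
  have hpq : ¬ p ∣ q := by
    have h1 : 3 ≤ n * (n - 1) / 2 := by
      have : 3 * 2 ≤ n * (n - 1) := Nat.mul_le_mul hn (by omega)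
      omega
    refine cop_of (E := n * (n - 1) / 2) (d := Nat.gcd n (q + 1) * (q + 1)) hsq (by omega)
      (Nat.Coprime.mul_left (Nat.Coprime.coprime_dvd_left (Nat.gcd_dvd_right n (q + 1)) coprime_add)
        coprime_add) ?_
    rw [mul_assoc, ho]
    exact Dvd.intro _ rfl
  replace he := he hpq
  obtain ⟨i, hi, hpi⟩ : ∃ i, i < n ∧ p ∣ uf q i := by
    have h1 : p ∣ q ^ (n * (n - 1) / 2) * ∏ i ∈ Finset.range n, uf q i := by
      rw [← ho]
      exact dvd_mul_of_dvd_right (dvd_mul_of_dvd_right hd _) _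
    rcases (hp.dvd_mul).1 h1 with h2 | h2
    · exact absurd (hp.dvd_of_dvd_pow h2) hpq
    · obtain ⟨i, hi, h3⟩ := (hp.prime.dvd_finsetProd_iff _).1 h2
      exact ⟨i, Finset.mem_range.1 hi, h3⟩
  have hev : n * (n - 1) / 2 + n * (n - 1) / 2 = n * (n - 1) := by
    have := Nat.even_mul_pred_self n
    obtain ⟨k, hk⟩ := this
    omega
  have hlow : q ^ (n * (n - 1)) ≤ n * o := by
    have h1 := prod_u_ge (n := n) (q := q) (by omega) hq2
    have h2 : Nat.gcd n (q + 1) ≤ n := Nat.le_of_dvd (by omega) (Nat.gcd_dvd_left _ _)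
    have h3 : q ^ (n * (n - 1)) * (q + 1) ≤ (n * o) * (q + 1) := by
      calc q ^ (n * (n - 1)) * (q + 1) = q ^ (n * (n - 1) / 2) * (q ^ (n * (n - 1) / 2) * (q + 1)) := by
            rw [← mul_assoc, ← pow_add, hev]
        _ ≤ q ^ (n * (n - 1) / 2) * ∏ i ∈ Finset.range n, uf q i := Nat.mul_le_mul_left _ h1
        _ = Nat.gcd n (q + 1) * ((q + 1) * o) := ho.symm
        _ ≤ n * ((q + 1) * o) := Nat.mul_le_mul_right _ h2
        _ = _ := by ring
    exact Nat.le_of_mul_le_mul_right h3 (by omega)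
  rcases Nat.lt_or_ge n 5 with hn5 | hn5
  · obtain rfl | rfl : n = 3 ∨ n = 4 := by omega
    · -- `n = 3`
      have hq3 : 3 ≤ q := by
        rcases Nat.lt_or_ge q 3 with h5 | h5
        · exact absurd ⟨rfl, by omega⟩ hn2
        · exact h5
      have hu0 : uf q 0 = q + 1 := by simp [uf]
      have hu1 : uf q 1 = q ^ 2 - 1 := by simp [uf]
      have hu2 : uf q 2 = q ^ 3 + 1 := by simp [uf]
      rw [Finset.prod_range_succ, Finset.prod_range_succ, Finset.prod_range_succ, Finset.prod_range_zero,
        one_mul, hu0, hu1, hu2] at ho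
      obtain ⟨t, rfl⟩ : ∃ t, q = t + 1 := ⟨q - 1, by omega⟩
      have e1 : (t + 1) ^ 3 + 1 = (t + 2) * (t * (t + 1) + 1) := by ring
      have e2 : (t + 1) ^ 2 - 1 = t * (t + 2) := by
        have : (t + 1) ^ 2 = t * (t + 2) + 1 := by ring
        omega
      rw [e1, e2] at ho
      have ho' : Nat.gcd 3 (t + 2) * o = (t + 1) ^ 3 * t * (t + 2) ^ 2 * (t * (t + 1) + 1) := by
        have ht : 0 < t + 1 + 1 := by omega
        apply Nat.eq_of_mul_eq_mul_left ht
        calc (t + 1 + 1) * (Nat.gcd 3 (t + 2) * o) = Nat.gcd 3 (t + 1 + 1) * ((t + 1 + 1) * o) := by ring_nf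
          _ = _ := ho
          _ = _ := by norm_num; ring
      have hpX : p ≤ t * (t + 1) + 1 := by
        obtain rfl | rfl | rfl : i = 0 ∨ i = 1 ∨ i = 2 := by omega
        · rw [hu0] at hpi
          have := Nat.le_of_dvd (by omega) hpi
          nlinarith
        · rw [hu1, e2] at hpi
          rcases (hp.dvd_mul).1 hpi with h5 | h5
          · have := Nat.le_of_dvd (by omega) h5
            nlinarith
          · have := Nat.le_of_dvd (by omega) h5
            nlinarith
        · rw [hu2, e1] at hpi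
          rcases (hp.dvd_mul).1 hpi with h5 | h5
          · have := Nat.le_of_dvd (by omega) h5
            nlinarith
          · exact Nat.le_of_dvd (by positivity) h5
      refine no_num3 hp h he hpX ?_
      have h6 : Nat.gcd 3 (t + 2) ≤ 3 := Nat.le_of_dvd (by norm_num) (Nat.gcd_dvd_left _ _)
      have h7 : 3 * (3 * (t * (t + 1) + 1) ^ 3) ≤ 3 * o := by
        calc 3 * (3 * (t * (t + 1) + 1) ^ 3)
            = (9 * (t * (t + 1) + 1) ^ 2) * (t * (t + 1) + 1) := by ring
          _ ≤ ((t + 1) ^ 3 * t * (t + 2) ^ 2) * (t * (t + 1) + 1) := by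
            apply Nat.mul_le_mul_right
            obtain ⟨s, rfl⟩ : ∃ s, t = s + 2 := ⟨t - 2, by omega⟩
            ring_nf
            nlinarith [sq_nonneg s, sq_nonneg (s ^ 2), sq_nonneg (s ^ 3)]
          _ = Nat.gcd 3 (t + 2) * o := by rw [ho']
          _ ≤ 3 * o := Nat.mul_le_mul_right _ h6
      omega
    · -- `n = 4`
      have hu0 : uf q 0 = q + 1 := by simp [uf]
      have hu1 : uf q 1 = q ^ 2 - 1 := by simp [uf]
      have hu2 : uf q 2 = q ^ 3 + 1 := by simp [uf]
      have hu3 : uf q 3 = q ^ 4 - 1 := by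
        unfold uf
        rw [if_neg (by decide)]
      have hpX : p ≤ q ^ 2 + 1 := by
        obtain rfl | rfl | rfl | rfl : i = 0 ∨ i = 1 ∨ i = 2 ∨ i = 3 := by omega
        · rw [hu0] at hpi
          have := Nat.le_of_dvd (by omega) hpi
          nlinarith
        · rw [hu1] at hpi
          have h5 : 2 ≤ q ^ 2 := by nlinarith
          have := Nat.le_of_dvd (by omega) hpi
          omega
        · obtain ⟨t, rfl⟩ : ∃ t, q = t + 1 := ⟨q - 1, by omega⟩
          have e1 : (t + 1) ^ 3 + 1 = (t + 2) * (t * (t + 1) + 1) := by ring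
          rw [hu2, e1] at hpi
          rcases (hp.dvd_mul).1 hpi with h5 | h5
          · have := Nat.le_of_dvd (by omega) h5
            nlinarith
          · have := Nat.le_of_dvd (by positivity) h5
            nlinarith
        · rw [hu3] at hpi
          exact prime_le_of_dvd_sub_one (k := 2) hp hq2 (by norm_num) (by simpa using hpi)
      have hN : 4 * (q ^ 2 + 1) ^ 3 ≤ o := by
        have h7 : 4 * (4 * (q ^ 2 + 1) ^ 3) ≤ 4 * o := by
          refine le_trans ?_ hlow
          have h8 : 4 * (q ^ 2 + 1) ≤ 5 * q ^ 2 := by nlinarith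
          have h9 : 64 * (q ^ 2 + 1) ^ 3 ≤ 125 * q ^ 6 := by
            calc 64 * (q ^ 2 + 1) ^ 3 = (4 * (q ^ 2 + 1)) ^ 3 := by ring
              _ ≤ (5 * q ^ 2) ^ 3 := Nat.pow_le_pow_left h8 3
              _ = 125 * q ^ 6 := by ring
          calc 4 * (4 * (q ^ 2 + 1) ^ 3) ≤ 64 * (q ^ 2 + 1) ^ 3 / 4 := by omega
            _ ≤ 125 * q ^ 6 / 4 := Nat.div_le_div_right h9
            _ ≤ 2 ^ 6 * q ^ 6 := by
              have h10 : 0 < q ^ 6 := by positivity
              omega
            _ ≤ q ^ 6 * q ^ 6 := by gcongr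
            _ = q ^ (4 * (4 - 1)) := by rw [← pow_add]
        omega
      rcases Nat.lt_or_ge q 6 with hq6 | hq6
      · rw [Finset.prod_range_succ, Finset.prod_range_succ, Finset.prod_range_succ, Finset.prod_range_succ,
          Finset.prod_range_zero, one_mul, hu0, hu1, hu2, hu3] at ho
        rcases q_list hq (by omega) with rfl | rfl | rfl | rfl | rfl | rfl | rfl | rfl
        · have ho2 : o = 25920 := by norm_num at ho; omega
          exact no_num hp h he hpX hN (Or.inr (by rw [ho2]; decide +kernel))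
        · have ho2 : o = 3265920 := by norm_num at ho; omega
          exact no_num hp h he hpX hN (Or.inr (by rw [ho2]; decide +kernel))
        · have ho2 : o = 1018368000 := by norm_num at ho; omega
          exact no_num hp h he hpX hN (Or.inr (by rw [ho2]; decide +kernel))
        · have ho2 : o = 14742000000 := by norm_num at ho; omega
          exact no_num hp h he hpX hN (Or.inr (by rw [ho2]; decide +kernel))
        all_goals omega
      · refine no_num hp h he hpX hN (Or.inl ?_)
        have h7 : 4 * ((4 ^ 2 + 1) ^ 5 * 4 ^ 3) ≤ 4 * o := by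
          refine le_trans ?_ hlow
          calc 4 * ((4 ^ 2 + 1) ^ 5 * 4 ^ 3) ≤ 6 ^ (4 * (4 - 1)) := by norm_num
            _ ≤ q ^ (4 * (4 - 1)) := Nat.pow_le_pow_left hq6 _
        omega
  · have hpX : p ≤ q ^ n + 1 := (Nat.le_of_dvd (uf_pos hq2) hpi).trans (uf_le hq2 hi)
    have hN : n * (q ^ n + 1) ^ 3 ≤ o := by
      have := (i1 hn5 hq2).trans hlow
      exact Nat.le_of_mul_le_mul_left this (by omega)
    rcases Nat.lt_or_ge n 7 with hn7 | hn7
    · obtain rfl | rfl : n = 5 ∨ n = 6 := by omega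
      · rcases Nat.lt_or_ge q 4 with hq4 | hq4
        · obtain rfl | rfl : q = 2 ∨ q = 3 := by omega
          · have hprod : ∏ i ∈ Finset.range 5, uf 2 i = 3 * 3 * 9 * 15 * 33 := by decide
            rw [hprod] at ho
            have ho2 : o = 13685760 := by norm_num at ho; omega
            exact no_num hp h he hpX hN (Or.inr (by rw [ho2]; decide +kernel))
          · have hprod : ∏ i ∈ Finset.range 5, uf 3 i = 4 * 8 * 28 * 80 * 244 := by decide
            rw [hprod] at ho
            have ho2 : o = 258190571520 := by norm_num at ho; omega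
            exact no_num hp h he hpX hN (Or.inr (by rw [ho2]; decide +kernel))
        · refine no_num hp h he hpX hN (Or.inl ?_)
          have h7 : 5 * ((5 ^ 2 + 1) ^ 5 * 5 ^ 3) ≤ 5 * o := by
            refine le_trans ?_ hlow
            calc 5 * ((5 ^ 2 + 1) ^ 5 * 5 ^ 3) ≤ 4 ^ (5 * (5 - 1)) := by norm_num
              _ ≤ q ^ (5 * (5 - 1)) := Nat.pow_le_pow_left hq4 _
          omega
      · rcases Nat.lt_or_ge q 3 with hq4 | hq4
        · obtain rfl : q = 2 := by omega
          have hprod : ∏ i ∈ Finset.range 6, uf 2 i = 3 * 3 * 9 * 15 * 33 * 63 := by decide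
          rw [hprod] at ho
          have ho2 : o = 9196830720 := by norm_num at ho; omega
          exact no_num hp h he hpX hN (Or.inr (by rw [ho2]; decide +kernel))
        · refine no_num hp h he hpX hN (Or.inl ?_)
          have h7 : 6 * ((6 ^ 2 + 1) ^ 5 * 6 ^ 3) ≤ 6 * o := by
            refine le_trans ?_ hlow
            calc 6 * ((6 ^ 2 + 1) ^ 5 * 6 ^ 3) ≤ 3 ^ (6 * (6 - 1)) := by norm_num
              _ ≤ q ^ (6 * (6 - 1)) := Nat.pow_le_pow_left hq4 _
          omega
    · refine no_num hp h he hpX hN (Or.inl ?_)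
      have := (i2 hn7 hq2).trans hlow
      exact Nat.le_of_mul_le_mul_left this (by omega)

/-- a power of two -/
theorem eq_two_pow {q : ℕ} (hq : IsPrimePow q) (h : Even q) : ∃ k, q = 2 ^ k := by
  obtain ⟨r, k, hr, hk, rfl⟩ := (isPrimePow_nat_iff q).1 hq
  have h1 : 2 ∣ r := Nat.prime_two.dvd_of_dvd_pow h.two_dvd
  rw [(Nat.prime_dvd_prime_iff_eq Nat.prime_two hr).1 h1]
  exact ⟨k, rfl⟩

/-- `PSL_2` -/
theorem psl2 {p e q o : ℕ} (hp : p.Prime) (hq : IsPrimePow q) (hq4 : 4 ≤ q)
    (ho : Nat.gcd 2 (q - 1) * o = q * (q ^ 2 - 1))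
    (hd : p ∣ o) (hsq : ¬ p ^ 2 ∣ o) (h : Num p e o) (he : ¬ p ∣ q → e ≤ 2) :
    q = p ∨ (3 < p ∧ (∃ k, p = 2 ^ k + 1) ∧ q = p - 1) ∨ (3 < p ∧ (∃ k, p + 1 = 2 ^ k) ∧ q = p + 1) := by
  have hp2 := hp.two_le
  by_cases hpq : p ∣ q
  · left
    obtain ⟨r, k, hr, hk, rfl⟩ := (isPrimePow_nat_iff q).1 hq
    have h1 : p = r := (Nat.prime_dvd_prime_iff_eq hp hr).1 (hp.dvd_of_dvd_pow hpq)
    subst h1
    rcases Nat.lt_or_ge k 2 with hk2 | hk2
    · obtain rfl : k = 1 := by omega
      rw [pow_one]
    · exfalso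
      apply hsq
      have h2 : p ^ 2 ∣ Nat.gcd 2 (p ^ k - 1) * o := by
        rw [ho]
        exact dvd_mul_of_dvd_left (pow_dvd_pow p hk2) _
      have h3 : (p ^ 2).Coprime (Nat.gcd 2 (p ^ k - 1)) := by
        have h4 := (coprime_gcd_sub (n := 2) (q := p ^ k) (by omega)).symm
        exact Nat.Coprime.coprime_dvd_left (pow_dvd_pow p hk2) h4
      exact h3.dvd_of_dvd_mul_left h2
  · right
    rcases cases_of hp h with ⟨n, ho2, hn1, hn2, hmod, he2, hed⟩ |
      ⟨hp17, a, b, c, hpab, rfl, ha3, hab, hc, -, -⟩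
    swap
    · exfalso
      have h1 := he hpq
      have h2 : b ≤ b * c := Nat.le_mul_of_pos_right b hc
      omega
    obtain rfl : e = 2 := le_antisymm (he hpq) he2
    have hq1 : q ^ 2 - 1 = (q + 1) * (q - 1) := by rw [← Nat.sq_sub_sq, one_pow]
    rw [hq1] at ho
    have h1 : p ∣ q * ((q + 1) * (q - 1)) := by rw [← ho]; exact dvd_mul_of_dvd_right hd _
    have h2 : p ∣ (q + 1) * (q - 1) := ((hp.dvd_mul).1 h1).resolve_left hpq
    rcases (hp.dvd_mul).1 h2 with ⟨t, ht⟩ | ⟨t, ht⟩
    · -- `q + 1 = p t`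
      left
      have ht0 : 0 < t := by
        rcases Nat.eq_zero_or_pos t with h3 | h3
        · rw [h3] at ht; omega
        · exact h3
      rcases Nat.even_or_odd q with hev | hodd
      · have hg : Nat.gcd 2 (q - 1) = 1 := by
          obtain ⟨s, hs⟩ := hev
          have : Odd (q - 1) := ⟨s - 1, by omega⟩
          exact (Nat.coprime_two_left).2 this
        rw [hg, one_mul, ho2, ht] at ho
        have h4 : 2 * n = q * (q - 1) * t := by
          apply Nat.eq_of_mul_eq_mul_left hp.pos
          calc p * (2 * n) = n * (p * 2) := by ring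
            _ = _ := ho
            _ = _ := by ring
        rcases Nat.lt_or_ge t 2 with ht2 | ht2
        · obtain rfl : t = 1 := by omega
          obtain ⟨k, hk⟩ := eq_two_pow hq hev
          exact ⟨by omega, ⟨k, by omega⟩, by omega⟩
        · exfalso
          have h5 : 2 * p ≤ q + 1 := by rw [ht, mul_comm]; exact Nat.mul_le_mul_left _ ht2
          have h6 : (2 * p - 1) * (2 * p - 2) * 2 ≤ q * (q - 1) * t :=
            Nat.mul_le_mul (Nat.mul_le_mul (by omega) (by omega)) ht2
          obtain ⟨r, rfl⟩ : ∃ r, p = r + 2 := ⟨p - 2, by omega⟩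
          rw [show 2 * (r + 2) - 1 = 2 * r + 3 by omega, show 2 * (r + 2) - 2 = 2 * r + 2 by omega] at h6
          nlinarith
      · exfalso
        have hg : Nat.gcd 2 (q - 1) = 2 := by
          obtain ⟨s, hs⟩ := hodd
          exact Nat.gcd_eq_left ⟨s, by omega⟩
        rw [hg, ho2, ht] at ho
        have h4 : 4 * n = q * (q - 1) * t := by
          apply Nat.eq_of_mul_eq_mul_left hp.pos
          calc p * (4 * n) = 2 * (n * (p * 2)) := by ring
            _ = _ := ho
            _ = _ := by ring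
        have hp3 : 3 ≤ p := by
          by_contra hcon
          obtain rfl : p = 2 := by omega
          rw [sq] at hn2
          obtain rfl : n = 3 := by omega
          obtain ⟨s, hs⟩ := hodd
          have : 5 * 4 * 1 ≤ q * (q - 1) * t :=
            Nat.mul_le_mul (Nat.mul_le_mul (by omega) (by omega)) (by omega)
          omega
        rcases Nat.lt_or_ge t 2 with ht2 | ht2
        · obtain rfl : t = 1 := by omega
          rcases hp.eq_two_or_odd' with h5 | h5
          · omega
          · obtain ⟨s, hs⟩ := hodd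
            obtain ⟨s', hs'⟩ := h5
            omega
        · have h5 : 2 * p ≤ q + 1 := by rw [ht, mul_comm]; exact Nat.mul_le_mul_left _ ht2
          have h6 : (2 * p - 1) * (2 * p - 2) * 2 ≤ q * (q - 1) * t :=
            Nat.mul_le_mul (Nat.mul_le_mul (by omega) (by omega)) ht2
          obtain ⟨r, rfl⟩ : ∃ r, p = r + 3 := ⟨p - 3, by omega⟩
          rw [show 2 * (r + 3) - 1 = 2 * r + 5 by omega, show 2 * (r + 3) - 2 = 2 * r + 4 by omega] at h6
          nlinarith
    · -- `q - 1 = p t`
      right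
      have hqt : q = p * t + 1 := by omega
      have ht0 : 0 < t := by
        rcases Nat.eq_zero_or_pos t with h3 | h3
        · rw [h3] at ht; omega
        · exact h3
      rcases Nat.even_or_odd q with hev | hodd
      · have hg : Nat.gcd 2 (q - 1) = 1 := by
          obtain ⟨s, hs⟩ := hev
          have : Odd (q - 1) := ⟨s - 1, by omega⟩
          exact (Nat.coprime_two_left).2 this
        rw [hg, one_mul, ho2, ht] at ho
        have h4 : 2 * n = q * (q + 1) * t := by
          apply Nat.eq_of_mul_eq_mul_left hp.pos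
          calc p * (2 * n) = n * (p * 2) := by ring
            _ = _ := ho
            _ = _ := by ring
        rcases Nat.lt_or_ge t 2 with ht2 | ht2
        · obtain rfl : t = 1 := by omega
          obtain ⟨k, hk⟩ := eq_two_pow hq hev
          have hp3 : p ≠ 3 := by
            rintro rfl
            obtain rfl : q = 4 := by omega
            omega
          exact ⟨by omega, ⟨k, by omega⟩, by omega⟩
        · exfalso
          have h5 : p * 2 ≤ p * t := Nat.mul_le_mul_left _ ht2
          have h6 : (p * 2) * (p * 2) * 2 ≤ q * (q + 1) * t :=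
            Nat.mul_le_mul (Nat.mul_le_mul (by omega) (by omega)) ht2
          nlinarith
      · exfalso
        have hg : Nat.gcd 2 (q - 1) = 2 := by
          obtain ⟨s, hs⟩ := hodd
          exact Nat.gcd_eq_left ⟨s, by omega⟩
        rw [hg, ho2, ht] at ho
        have h4 : 4 * n = q * (q + 1) * t := by
          apply Nat.eq_of_mul_eq_mul_left hp.pos
          calc p * (4 * n) = 2 * (n * (p * 2)) := by ring
            _ = _ := ho
            _ = _ := by ring
        rcases Nat.lt_or_ge t 2 with ht2 | ht2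
        · obtain rfl : t = 1 := by omega
          rcases hp.eq_two_or_odd' with h5 | h5
          · omega
          · obtain ⟨s, hs⟩ := hodd
            obtain ⟨s', hs'⟩ := h5
            omega
        · have h5 : p * 2 ≤ p * t := Nat.mul_le_mul_left _ ht2
          have h6 : (p * 2) * (p * 2) * 2 ≤ q * (q + 1) * t :=
            Nat.mul_le_mul (Nat.mul_le_mul (by omega) (by omega)) ht2
          nlinarith

end Cfsg.Agent.H570.Fam
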