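import Cfsg.Agent.H570.FamA

/-!
Elimination of the exceptional groups, numerical part.
-/

set_option autoImplicit false

namespace Cfsg.Agent.H570.Fam

open Cfsg.Agent.H570.Data Cfsg.Agent.H570.Chk Cfsg.Agent.H570.Ineq

theorem sub_ge {q : ℕ} (k : ℕ) (hq : 2 ≤ q) : q ^ k ≤ q ^ (k + 1) - 1 := by
  have h2 : q ^ (k + 1) = q ^ k * q := pow_succ _ _
  have h3 : q ^ k * 2 ≤ q ^ k * q := Nat.mul_le_mul_left _ hq
  have h4 : 1 ≤ q ^ k := Nat.one_le_pow _ _ (by omega)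
  omega

theorem add_ge {q : ℕ} (k : ℕ) (hq : 2 ≤ q) : q ^ k ≤ q ^ (k + 1) + 1 := by
  have := sub_ge k hq
  omega

theorem le_X {p q : ℕ} (k K : ℕ) (hk1 : 1 ≤ k) (hk : k ≤ K) (hq : 2 ≤ q)
    (h : p ∣ q ^ k - 1) : p ≤ q ^ K := by
  have h1 : q ^ k ≤ q ^ K := Nat.pow_le_pow_right (by omega) hk
  have h2 : 2 ≤ q ^ k := by
    calc 2 ≤ q := hq
      _ = q ^ 1 := (pow_one q).symm
      _ ≤ q ^ k := Nat.pow_le_pow_right (by omega) hk1
  have := Nat.le_of_dvd (by omega) h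
  omega

theorem le_X' {p q : ℕ} (k K : ℕ) (hk : k < K) (hq : 2 ≤ q)
    (h : p ∣ q ^ k + 1) : p ≤ q ^ K := by
  have h1 : q ^ (k + 1) ≤ q ^ K := Nat.pow_le_pow_right (by omega) hk
  have h2 : q ^ (k + 1) = q ^ k * q := pow_succ _ _
  have h3 : q ^ k * 2 ≤ q ^ k * q := Nat.mul_le_mul_left _ hq
  have h4 : 1 ≤ q ^ k := Nat.one_le_pow _ _ (by omega)
  have := Nat.le_of_dvd (by omega) h
  omega

theorem f4 {p e q o : ℕ} (hp : p.Prime) (hq2 : 2 ≤ q)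
    (ho : o = q ^ 24 * (q ^ 2 - 1) * (q ^ 6 - 1) * (q ^ 8 - 1) * (q ^ 12 - 1))
    (hd : p ∣ o) (hsq : ¬ p ^ 2 ∣ o) (h : Num p e o) (he : ¬ p ∣ q → e ≤ 52) : False := by
  have hpq : ¬ p ∣ q := by
    refine cop_of (E := 24) (d := 1) hsq (by omega) (Nat.coprime_one_left _) ?_
    rw [ho, one_mul]
    exact Dvd.intro ((q ^ 2 - 1) * (q ^ 6 - 1) * (q ^ 8 - 1) * (q ^ 12 - 1)) (by ring)
  replace he := he hpq
  have hpX : p ≤ q ^ 12 := by
    rw [ho, hp.dvd_mul, hp.dvd_mul, hp.dvd_mul, hp.dvd_mul] at hd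
    rcases hd with (((hd | hd) | hd) | hd) | hd
    · exact absurd (hp.dvd_of_dvd_pow hd) hpq
    · exact le_X 2 12 (by norm_num) (by norm_num) hq2 hd
    · exact le_X 6 12 (by norm_num) (by norm_num) hq2 hd
    · exact le_X 8 12 (by norm_num) (by norm_num) hq2 hd
    · exact le_X 12 12 (by norm_num) (by norm_num) hq2 hd
  have hlow : q ^ 48 ≤ o := by
    rw [ho]
    calc q ^ 48 = q ^ 24 * q ^ 1 * q ^ 5 * q ^ 7 * q ^ 11 := by ring
      _ ≤ _ := by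
        gcongr
        · exact sub_ge 1 hq2
        · exact sub_ge 5 hq2
        · exact sub_ge 7 hq2
        · exact sub_ge 11 hq2
  refine no_num hp h he hpX ?_ ?_
  · refine le_trans ?_ hlow
    calc 52 * (q ^ 12) ^ 3 ≤ 2 ^ 12 * (q ^ 12) ^ 3 := by gcongr; norm_num
      _ ≤ q ^ 12 * (q ^ 12) ^ 3 := by gcongr
      _ = q ^ 48 := by ring
  · rcases Nat.lt_or_ge q 3 with hq3 | hq3
    · obtain rfl : q = 2 := by omega
      right
      have ho2 : o = 3311126603366400 := by rw [ho]; norm_num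
      rw [ho2]; decide +kernel
    · left
      refine le_trans ?_ hlow
      calc (52 ^ 2 + 1) ^ 5 * 52 ^ 3 ≤ 3 ^ 48 := by norm_num
        _ ≤ q ^ 48 := by gcongr

theorem e6 {p e q o : ℕ} (hp : p.Prime) (hq2 : 2 ≤ q)
    (ho : Nat.gcd 3 (q - 1) * o =
      q ^ 36 * (q ^ 2 - 1) * (q ^ 5 - 1) * (q ^ 6 - 1) * (q ^ 8 - 1) * (q ^ 9 - 1) * (q ^ 12 - 1))
    (hd : p ∣ o) (hsq : ¬ p ^ 2 ∣ o) (h : Num p e o) (he : ¬ p ∣ q → e ≤ 78) : False := by
  have hpq : ¬ p ∣ q := by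
    refine cop_of (E := 36) (d := Nat.gcd 3 (q - 1)) hsq (by omega) (coprime_gcd_sub hq2) ?_
    rw [ho]
    exact Dvd.intro ((q ^ 2 - 1) * (q ^ 5 - 1) * (q ^ 6 - 1) * (q ^ 8 - 1) * (q ^ 9 - 1) * (q ^ 12 - 1))
      (by ring)
  replace he := he hpq
  have hpX : p ≤ q ^ 12 := by
    have hd2 : p ∣ Nat.gcd 3 (q - 1) * o := dvd_mul_of_dvd_right hd _
    rw [ho, hp.dvd_mul, hp.dvd_mul, hp.dvd_mul, hp.dvd_mul, hp.dvd_mul, hp.dvd_mul] at hd2
    rcases hd2 with (((((hd | hd) | hd) | hd) | hd) | hd) | hd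
    · exact absurd (hp.dvd_of_dvd_pow hd) hpq
    · exact le_X 2 12 (by norm_num) (by norm_num) hq2 hd
    · exact le_X 5 12 (by norm_num) (by norm_num) hq2 hd
    · exact le_X 6 12 (by norm_num) (by norm_num) hq2 hd
    · exact le_X 8 12 (by norm_num) (by norm_num) hq2 hd
    · exact le_X 9 12 (by norm_num) (by norm_num) hq2 hd
    · exact le_X 12 12 (by norm_num) (by norm_num) hq2 hd
  have hlow : q ^ 72 ≤ 3 * o := by
    calc q ^ 72 = q ^ 36 * q ^ 1 * q ^ 4 * q ^ 5 * q ^ 7 * q ^ 8 * q ^ 11 := by ring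
      _ ≤ Nat.gcd 3 (q - 1) * o := by
        rw [ho]
        gcongr
        · exact sub_ge 1 hq2
        · exact sub_ge 4 hq2
        · exact sub_ge 5 hq2
        · exact sub_ge 7 hq2
        · exact sub_ge 8 hq2
        · exact sub_ge 11 hq2
      _ ≤ 3 * o := Nat.mul_le_mul_right _ (Nat.le_of_dvd (by norm_num) (Nat.gcd_dvd_left _ _))
  refine no_num hp h he hpX ?_ ?_
  · have : 3 * (78 * (q ^ 12) ^ 3) ≤ 3 * o := by
      refine le_trans ?_ hlow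
      calc 3 * (78 * (q ^ 12) ^ 3) = 234 * q ^ 36 := by ring
        _ ≤ 2 ^ 36 * q ^ 36 := by gcongr; norm_num
        _ ≤ q ^ 36 * q ^ 36 := by gcongr
        _ = q ^ 72 := by ring
    omega
  · rcases Nat.lt_or_ge q 3 with hq3 | hq3
    · obtain rfl : q = 2 := by omega
      right
      have ho2 : o = 214841575522005575270400 := by norm_num at ho; omega
      rw [ho2]; decide +kernel
    · left
      have : 3 * ((78 ^ 2 + 1) ^ 5 * 78 ^ 3) ≤ 3 * o := by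
        refine le_trans ?_ hlow
        calc 3 * ((78 ^ 2 + 1) ^ 5 * 78 ^ 3) ≤ 3 ^ 72 := by norm_num
          _ ≤ q ^ 72 := by gcongr
      omega

theorem te6 {p e q o : ℕ} (hp : p.Prime) (hq2 : 2 ≤ q)
    (ho : Nat.gcd 3 (q + 1) * o =
      q ^ 36 * (q ^ 2 - 1) * (q ^ 5 + 1) * (q ^ 6 - 1) * (q ^ 8 - 1) * (q ^ 9 + 1) * (q ^ 12 - 1))
    (hd : p ∣ o) (hsq : ¬ p ^ 2 ∣ o) (h : Num p e o) (he : ¬ p ∣ q → e ≤ 78) : False := by
  have hpq : ¬ p ∣ q := by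
    refine cop_of (E := 36) (d := Nat.gcd 3 (q + 1)) hsq (by omega)
      (Nat.Coprime.coprime_dvd_left (Nat.gcd_dvd_right 3 (q + 1)) coprime_add) ?_
    rw [ho]
    exact Dvd.intro ((q ^ 2 - 1) * (q ^ 5 + 1) * (q ^ 6 - 1) * (q ^ 8 - 1) * (q ^ 9 + 1) * (q ^ 12 - 1))
      (by ring)
  replace he := he hpq
  have hpX : p ≤ q ^ 12 := by
    have hd2 : p ∣ Nat.gcd 3 (q + 1) * o := dvd_mul_of_dvd_right hd _
    rw [ho, hp.dvd_mul, hp.dvd_mul, hp.dvd_mul, hp.dvd_mul, hp.dvd_mul, hp.dvd_mul] at hd2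
    rcases hd2 with (((((hd | hd) | hd) | hd) | hd) | hd) | hd
    · exact absurd (hp.dvd_of_dvd_pow hd) hpq
    · exact le_X 2 12 (by norm_num) (by norm_num) hq2 hd
    · exact le_X' 5 12 (by norm_num) hq2 hd
    · exact le_X 6 12 (by norm_num) (by norm_num) hq2 hd
    · exact le_X 8 12 (by norm_num) (by norm_num) hq2 hd
    · exact le_X' 9 12 (by norm_num) hq2 hd
    · exact le_X 12 12 (by norm_num) (by norm_num) hq2 hd
  have hlow : q ^ 72 ≤ 3 * o := by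
    calc q ^ 72 = q ^ 36 * q ^ 1 * q ^ 4 * q ^ 5 * q ^ 7 * q ^ 8 * q ^ 11 := by ring
      _ ≤ Nat.gcd 3 (q + 1) * o := by
        rw [ho]
        gcongr
        · exact sub_ge 1 hq2
        · exact add_ge 4 hq2
        · exact sub_ge 5 hq2
        · exact sub_ge 7 hq2
        · exact add_ge 8 hq2
        · exact sub_ge 11 hq2
      _ ≤ 3 * o := Nat.mul_le_mul_right _ (Nat.le_of_dvd (by norm_num) (Nat.gcd_dvd_left _ _))
  refine no_num hp h he hpX ?_ ?_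
  · have : 3 * (78 * (q ^ 12) ^ 3) ≤ 3 * o := by
      refine le_trans ?_ hlow
      calc 3 * (78 * (q ^ 12) ^ 3) = 234 * q ^ 36 := by ring
        _ ≤ 2 ^ 36 * q ^ 36 := by gcongr; norm_num
        _ ≤ q ^ 36 * q ^ 36 := by gcongr
        _ = q ^ 72 := by ring
    omega
  · rcases Nat.lt_or_ge q 3 with hq3 | hq3
    · obtain rfl : q = 2 := by omega
      right
      have ho2 : o = 76532479683774853939200 := by norm_num at ho; omega
      rw [ho2]; decide +kernel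
    · left
      have : 3 * ((78 ^ 2 + 1) ^ 5 * 78 ^ 3) ≤ 3 * o := by
        refine le_trans ?_ hlow
        calc 3 * ((78 ^ 2 + 1) ^ 5 * 78 ^ 3) ≤ 3 ^ 72 := by norm_num
          _ ≤ q ^ 72 := by gcongr
      omega

theorem e7 {p e q o : ℕ} (hp : p.Prime) (hq2 : 2 ≤ q)
    (ho : Nat.gcd 2 (q - 1) * o = q ^ 63 * (q ^ 2 - 1) * (q ^ 6 - 1) * (q ^ 8 - 1) *
      (q ^ 10 - 1) * (q ^ 12 - 1) * (q ^ 14 - 1) * (q ^ 18 - 1))
    (hd : p ∣ o) (hsq : ¬ p ^ 2 ∣ o) (h : Num p e o) (he : ¬ p ∣ q → e ≤ 133) : False := by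
  have hpq : ¬ p ∣ q := by
    refine cop_of (E := 63) (d := Nat.gcd 2 (q - 1)) hsq (by omega) (coprime_gcd_sub hq2) ?_
    rw [ho]
    exact Dvd.intro ((q ^ 2 - 1) * (q ^ 6 - 1) * (q ^ 8 - 1) *
      (q ^ 10 - 1) * (q ^ 12 - 1) * (q ^ 14 - 1) * (q ^ 18 - 1)) (by ring)
  replace he := he hpq
  have hpX : p ≤ q ^ 18 := by
    have hd2 : p ∣ Nat.gcd 2 (q - 1) * o := dvd_mul_of_dvd_right hd _
    rw [ho, hp.dvd_mul, hp.dvd_mul, hp.dvd_mul, hp.dvd_mul, hp.dvd_mul, hp.dvd_mul, hp.dvd_mul] at hd2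
    rcases hd2 with ((((((hd | hd) | hd) | hd) | hd) | hd) | hd) | hd
    · exact absurd (hp.dvd_of_dvd_pow hd) hpq
    · exact le_X 2 18 (by norm_num) (by norm_num) hq2 hd
    · exact le_X 6 18 (by norm_num) (by norm_num) hq2 hd
    · exact le_X 8 18 (by norm_num) (by norm_num) hq2 hd
    · exact le_X 10 18 (by norm_num) (by norm_num) hq2 hd
    · exact le_X 12 18 (by norm_num) (by norm_num) hq2 hd
    · exact le_X 14 18 (by norm_num) (by norm_num) hq2 hd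
    · exact le_X 18 18 (by norm_num) (by norm_num) hq2 hd
  have hlow : q ^ 126 ≤ 2 * o := by
    calc q ^ 126 = q ^ 63 * q ^ 1 * q ^ 5 * q ^ 7 * q ^ 9 * q ^ 11 * q ^ 13 * q ^ 17 := by ring
      _ ≤ Nat.gcd 2 (q - 1) * o := by
        rw [ho]
        gcongr
        · exact sub_ge 1 hq2
        · exact sub_ge 5 hq2
        · exact sub_ge 7 hq2
        · exact sub_ge 9 hq2
        · exact sub_ge 11 hq2
        · exact sub_ge 13 hq2
        · exact sub_ge 17 hq2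
      _ ≤ 2 * o := Nat.mul_le_mul_right _ (Nat.le_of_dvd (by norm_num) (Nat.gcd_dvd_left _ _))
  refine no_num hp h he hpX ?_ (Or.inl ?_)
  · have : 2 * (133 * (q ^ 18) ^ 3) ≤ 2 * o := by
      refine le_trans ?_ hlow
      calc 2 * (133 * (q ^ 18) ^ 3) = 266 * q ^ 54 := by ring
        _ ≤ 2 ^ 72 * q ^ 54 := by gcongr; norm_num
        _ ≤ q ^ 72 * q ^ 54 := by gcongr
        _ = q ^ 126 := by ring
    omega
  · have : 2 * ((133 ^ 2 + 1) ^ 5 * 133 ^ 3) ≤ 2 * o := by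
      refine le_trans ?_ hlow
      calc 2 * ((133 ^ 2 + 1) ^ 5 * 133 ^ 3) ≤ 2 ^ 126 := by norm_num
        _ ≤ q ^ 126 := by gcongr
    omega

theorem e8 {p e q o : ℕ} (hp : p.Prime) (hq2 : 2 ≤ q)
    (ho : o = q ^ 120 * (q ^ 2 - 1) * (q ^ 8 - 1) * (q ^ 12 - 1) * (q ^ 14 - 1) *
      (q ^ 18 - 1) * (q ^ 20 - 1) * (q ^ 24 - 1) * (q ^ 30 - 1))
    (hd : p ∣ o) (hsq : ¬ p ^ 2 ∣ o) (h : Num p e o) (he : ¬ p ∣ q → e ≤ 248) : False := by
  have hpq : ¬ p ∣ q := by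
    refine cop_of (E := 120) (d := 1) hsq (by omega) (Nat.coprime_one_left _) ?_
    rw [ho, one_mul]
    exact Dvd.intro ((q ^ 2 - 1) * (q ^ 8 - 1) * (q ^ 12 - 1) * (q ^ 14 - 1) *
      (q ^ 18 - 1) * (q ^ 20 - 1) * (q ^ 24 - 1) * (q ^ 30 - 1)) (by ring)
  replace he := he hpq
  have hpX : p ≤ q ^ 30 := by
    rw [ho, hp.dvd_mul, hp.dvd_mul, hp.dvd_mul, hp.dvd_mul, hp.dvd_mul, hp.dvd_mul, hp.dvd_mul,
      hp.dvd_mul] at hd
    rcases hd with (((((((hd | hd) | hd) | hd) | hd) | hd) | hd) | hd) | hd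
    · exact absurd (hp.dvd_of_dvd_pow hd) hpq
    · exact le_X 2 30 (by norm_num) (by norm_num) hq2 hd
    · exact le_X 8 30 (by norm_num) (by norm_num) hq2 hd
    · exact le_X 12 30 (by norm_num) (by norm_num) hq2 hd
    · exact le_X 14 30 (by norm_num) (by norm_num) hq2 hd
    · exact le_X 18 30 (by norm_num) (by norm_num) hq2 hd
    · exact le_X 20 30 (by norm_num) (by norm_num) hq2 hd
    · exact le_X 24 30 (by norm_num) (by norm_num) hq2 hd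
    · exact le_X 30 30 (by norm_num) (by norm_num) hq2 hd
  have hlow : q ^ 240 ≤ o := by
    rw [ho]
    calc q ^ 240 = q ^ 120 * q ^ 1 * q ^ 7 * q ^ 11 * q ^ 13 * q ^ 17 * q ^ 19 * q ^ 23 * q ^ 29 := by
          rw [← pow_add, ← pow_add, ← pow_add, ← pow_add, ← pow_add, ← pow_add, ← pow_add, ← pow_add]
      _ ≤ _ := by
        gcongr
        · exact sub_ge 1 hq2
        · exact sub_ge 7 hq2
        · exact sub_ge 11 hq2
        · exact sub_ge 13 hq2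
        · exact sub_ge 17 hq2
        · exact sub_ge 19 hq2
        · exact sub_ge 23 hq2
        · exact sub_ge 29 hq2
  refine no_num hp h he hpX ?_ (Or.inl ?_)
  · refine le_trans ?_ hlow
    calc 248 * (q ^ 30) ^ 3 = 248 * q ^ 90 := by rw [← pow_mul]
      _ ≤ 2 ^ 150 * q ^ 90 := by gcongr; norm_num
      _ ≤ q ^ 150 * q ^ 90 := by gcongr
      _ = q ^ 240 := by rw [← pow_add]
  · refine le_trans ?_ hlow
    calc (248 ^ 2 + 1) ^ 5 * 248 ^ 3 ≤ 2 ^ 240 := by norm_num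
      _ ≤ q ^ 240 := by gcongr

theorem g2 {p e q o : ℕ} (hp : p.Prime) (hq : IsPrimePow q) (hq3 : 3 ≤ q)
    (ho : o = q ^ 6 * (q ^ 2 - 1) * (q ^ 6 - 1))
    (hd : p ∣ o) (hsq : ¬ p ^ 2 ∣ o) (h : Num p e o) (he : ¬ p ∣ q → e ≤ 14) : False := by
  have hpq : ¬ p ∣ q := by
    refine cop_of (E := 6) (d := 1) hsq (by omega) (Nat.coprime_one_left _) ?_
    rw [ho, one_mul]
    exact Dvd.intro ((q ^ 2 - 1) * (q ^ 6 - 1)) (by ring)
  replace he := he hpq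
  have hpX : p ≤ q ^ 3 + 1 := by
    rw [ho, hp.dvd_mul, hp.dvd_mul] at hd
    rcases hd with (hd | hd) | hd
    · exact absurd (hp.dvd_of_dvd_pow hd) hpq
    · have := le_X 2 3 (by norm_num) (by norm_num) (by omega) hd
      omega
    · exact prime_le_of_dvd_sub_one (k := 3) hp (by omega) (by norm_num) hd
  have hN : 14 * (q ^ 3 + 1) ^ 3 ≤ o := by
    rw [ho]
    have h1 : 8 ≤ q ^ 2 - 1 := by
      have : 3 ^ 2 ≤ q ^ 2 := Nat.pow_le_pow_left hq3 2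
      omega
    have h2 : 14 * q ^ 3 ≤ q ^ 6 - 1 := by
      have h3 : 3 ^ 3 ≤ q ^ 3 := Nat.pow_le_pow_left hq3 3
      have h4 : q ^ 6 = q ^ 3 * q ^ 3 := by ring
      have h5 : 27 * q ^ 3 ≤ q ^ 3 * q ^ 3 := Nat.mul_le_mul_right _ h3
      omega
    calc 14 * (q ^ 3 + 1) ^ 3 ≤ 14 * (8 * q ^ (3 * 3)) := by gcongr; exact add_one_cube (by omega)
      _ = q ^ 6 * 8 * (14 * q ^ 3) := by ring
      _ ≤ _ := Nat.mul_le_mul (Nat.mul_le_mul_left _ h1) h2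
  rcases Nat.lt_or_ge q 13 with hq13 | hq13
  · rcases q_list hq hq13 with rfl | rfl | rfl | rfl | rfl | rfl | rfl | rfl
    · omega
    all_goals
      refine no_num hp h he hpX hN (Or.inr ?_)
      norm_num at ho
      rw [ho]
      decide +kernel
  · refine no_num hp h he hpX hN (Or.inl ?_)
    rw [ho]
    calc (14 ^ 2 + 1) ^ 5 * 14 ^ 3 ≤ 13 ^ 6 * (13 ^ 2 - 1) * (13 ^ 6 - 1) := by norm_num
      _ ≤ _ := by gcongr

theorem td4 {p e q o : ℕ} (hp : p.Prime) (hq2 : 2 ≤ q)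
    (ho : o = q ^ 12 * (q ^ 2 - 1) * (q ^ 6 - 1) * (q ^ 8 + q ^ 4 + 1))
    (hd : p ∣ o) (hsq : ¬ p ^ 2 ∣ o) (h : Num p e o) (he : ¬ p ∣ q → e ≤ 28) : False := by
  have hpq : ¬ p ∣ q := by
    refine cop_of (E := 12) (d := 1) hsq (by omega) (Nat.coprime_one_left _) ?_
    rw [ho, one_mul]
    exact Dvd.intro ((q ^ 2 - 1) * (q ^ 6 - 1) * (q ^ 8 + q ^ 4 + 1)) (by ring)
  replace he := he hpq
  have hpX : p ≤ 2 * q ^ 4 := by
    have e0 : 2 * q ^ 2 ≤ q ^ 4 := by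
      have : 2 ^ 2 ≤ q ^ 2 := Nat.pow_le_pow_left hq2 2
      nlinarith
    have e1 : 2 ^ 2 ≤ q ^ 2 := Nat.pow_le_pow_left hq2 2
    rw [ho, hp.dvd_mul, hp.dvd_mul, hp.dvd_mul] at hd
    rcases hd with ((hd | hd) | hd) | hd
    · exact absurd (hp.dvd_of_dvd_pow hd) hpq
    · have := le_X 2 4 (by norm_num) (by norm_num) hq2 hd
      omega
    · have h1 := prime_le_of_dvd_sub_one (k := 3) hp hq2 (by norm_num) hd
      have h2 : q ^ 3 * 2 ≤ q ^ 3 * q := Nat.mul_le_mul_left _ hq2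
      have h3 : q ^ 4 = q ^ 3 * q := by ring
      omega
    · have h1 : q ^ 8 + q ^ 4 + 1 = (q ^ 4 + q ^ 2 + 1) * (q ^ 4 - q ^ 2 + 1) := by
        obtain ⟨t, ht⟩ : ∃ t, q ^ 4 = q ^ 2 + t := ⟨q ^ 4 - q ^ 2, by omega⟩
        have h8 : q ^ 8 = q ^ 4 * q ^ 4 := by ring
        have h4 : q ^ 4 = q ^ 2 * q ^ 2 := by ring
        rw [h8, ht, show q ^ 2 + t - q ^ 2 = t by omega]
        rw [h4] at ht
        generalize q ^ 2 = x at *
        nlinarith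
      rw [h1] at hd
      rcases (hp.dvd_mul).1 hd with h2 | h2
      · have := Nat.le_of_dvd (by omega) h2
        omega
      · have := Nat.le_of_dvd (by omega) h2
        omega
  have hN : 28 * (2 * q ^ 4) ^ 3 ≤ o := by
    rw [ho]
    have h1 : 3 ≤ q ^ 2 - 1 := by
      have : 2 ^ 2 ≤ q ^ 2 := Nat.pow_le_pow_left hq2 2
      omega
    have h2 : 63 ≤ q ^ 6 - 1 := by
      have : 2 ^ 6 ≤ q ^ 6 := Nat.pow_le_pow_left hq2 6
      omega
    have h3 : 256 ≤ q ^ 8 + q ^ 4 + 1 := by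
      have : 2 ^ 8 ≤ q ^ 8 := Nat.pow_le_pow_left hq2 8
      omega
    calc 28 * (2 * q ^ 4) ^ 3 = q ^ 12 * 224 := by ring
      _ ≤ q ^ 12 * (3 * 63 * 256) := by gcongr; norm_num
      _ = q ^ 12 * 3 * 63 * 256 := by ring
      _ ≤ _ := Nat.mul_le_mul (Nat.mul_le_mul (Nat.mul_le_mul_left _ h1) h2) h3
  rcases Nat.lt_or_ge q 5 with hq5 | hq5
  · obtain rfl | rfl | rfl : q = 2 ∨ q = 3 ∨ q = 4 := by omega
    all_goals
      refine no_num hp h he hpX hN (Or.inr ?_)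
      norm_num at ho
      rw [ho]
      decide +kernel
  · refine no_num hp h he hpX hN (Or.inl ?_)
    rw [ho]
    calc (28 ^ 2 + 1) ^ 5 * 28 ^ 3 ≤ 5 ^ 12 * (5 ^ 2 - 1) * (5 ^ 6 - 1) * (5 ^ 8 + 5 ^ 4 + 1) := by
          norm_num
      _ ≤ _ := by gcongr

theorem sz {p e m o : ℕ} (hp : p.Prime) (hm : 1 ≤ m)
    (ho : o = (2 ^ (2 * m + 1)) ^ 2 * (2 ^ (2 * m + 1) - 1) * ((2 ^ (2 * m + 1)) ^ 2 + 1))
    (hd : p ∣ o) (hsq : ¬ p ^ 2 ∣ o) (h : Num p e o) (he : ¬ p ∣ 2 ^ (2 * m + 1) → e ≤ 4) : False := by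
  set q := 2 ^ (2 * m + 1) with hq
  have hq8 : 8 ≤ q := by
    calc 8 = 2 ^ 3 := by norm_num
      _ ≤ q := Nat.pow_le_pow_right (by norm_num) (by omega)
  have hpq : ¬ p ∣ q := by
    refine cop_of (E := 2) (d := 1) hsq (by omega) (Nat.coprime_one_left _) ?_
    rw [ho, one_mul]
    exact Dvd.intro ((q - 1) * (q ^ 2 + 1)) (by ring)
  replace he := he hpq
  obtain ⟨r, hr, hr2⟩ : ∃ r, r = 2 ^ (m + 1) ∧ r * r = 2 * q := by
    refine ⟨_, rfl, ?_⟩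
    rw [hq, ← pow_add, ← pow_succ']
    congr 1
    ring
  have hr4 : 4 ≤ r := by
    rw [hr]
    calc 4 = 2 ^ 2 := by norm_num
      _ ≤ 2 ^ (m + 1) := Nat.pow_le_pow_right (by norm_num) (by omega)
  have hrq : 2 * r ≤ q := by nlinarith
  have hpX : p ≤ 2 * q := by
    rw [ho, hp.dvd_mul, hp.dvd_mul] at hd
    rcases hd with (hd | hd) | hd
    · exact absurd (hp.dvd_of_dvd_pow hd) hpq
    · have := Nat.le_of_dvd (by omega) hd
      omega
    · have h1 : q ^ 2 + 1 = (q + 1 + r) * (q + 1 - r) := by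
        obtain ⟨s, hs⟩ : ∃ s, q = r + s := ⟨q - r, by omega⟩
        rw [show q + 1 - r = s + 1 by omega]
        nlinarith
      rw [h1] at hd
      rcases (hp.dvd_mul).1 hd with h2 | h2
      · have := Nat.le_of_dvd (by omega) h2
        omega
      · have := Nat.le_of_dvd (by omega) h2
        omega
  have hN : 4 * (2 * q) ^ 3 ≤ o := by
    rw [ho]
    have h1 : 7 ≤ q - 1 := by omega
    have h2 : 8 * q ≤ q ^ 2 + 1 := by nlinarith
    calc 4 * (2 * q) ^ 3 = q ^ 2 * 4 * (8 * q) := by ring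
      _ ≤ q ^ 2 * 7 * (8 * q) := by gcongr; norm_num
      _ ≤ _ := Nat.mul_le_mul (Nat.mul_le_mul_left _ h1) h2
  rcases Nat.lt_or_ge m 3 with hm3 | hm3
  · obtain rfl | rfl : m = 1 ∨ m = 2 := by omega
    all_goals
      refine no_num hp h he hpX hN (Or.inr ?_)
      rw [hq] at ho
      norm_num at ho
      rw [ho]
      decide +kernel
  · refine no_num hp h he hpX hN (Or.inl ?_)
    have hq128 : 128 ≤ q := by
      calc 128 = 2 ^ 7 := by norm_num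
        _ ≤ q := Nat.pow_le_pow_right (by norm_num) (by omega)
    rw [ho]
    calc (4 ^ 2 + 1) ^ 5 * 4 ^ 3 ≤ 128 ^ 2 * (128 - 1) * (128 ^ 2 + 1) := by norm_num
      _ ≤ _ := by gcongr

theorem ree {p e m o : ℕ} (hp : p.Prime) (hm : 1 ≤ m)
    (ho : o = (3 ^ (2 * m + 1)) ^ 3 * (3 ^ (2 * m + 1) - 1) * ((3 ^ (2 * m + 1)) ^ 3 + 1))
    (hd : p ∣ o) (hsq : ¬ p ^ 2 ∣ o) (h : Num p e o) (he : ¬ p ∣ 3 ^ (2 * m + 1) → e ≤ 14) : False := by
  set q := 3 ^ (2 * m + 1) with hq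
  have hq8 : 27 ≤ q := by
    calc 27 = 3 ^ 3 := by norm_num
      _ ≤ q := Nat.pow_le_pow_right (by norm_num) (by omega)
  have hpq : ¬ p ∣ q := by
    refine cop_of (E := 3) (d := 1) hsq (by omega) (Nat.coprime_one_left _) ?_
    rw [ho, one_mul]
    exact Dvd.intro ((q - 1) * (q ^ 3 + 1)) (by ring)
  replace he := he hpq
  have hpX : p ≤ q ^ 2 := by
    have h0 : 27 * q ≤ q ^ 2 := by nlinarith
    rw [ho, hp.dvd_mul, hp.dvd_mul] at hd
    rcases hd with (hd | hd) | hd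
    · exact absurd (hp.dvd_of_dvd_pow hd) hpq
    · have := Nat.le_of_dvd (by omega) hd
      omega
    · have h1 : q ^ 3 + 1 = (q + 1) * (q ^ 2 - q + 1) := by
        obtain ⟨s, hs⟩ : ∃ s, q ^ 2 = q + s := ⟨q ^ 2 - q, by omega⟩
        rw [hs, show q + s - q + 1 = s + 1 by omega]
        have : q ^ 3 = q ^ 2 * q := by ring
        rw [this, hs]
        nlinarith
      rw [h1] at hd
      rcases (hp.dvd_mul).1 hd with h2 | h2
      · have := Nat.le_of_dvd (by omega) h2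
        omega
      · have := Nat.le_of_dvd (by omega) h2
        omega
  have hN : 14 * (q ^ 2) ^ 3 ≤ o := by
    rw [ho]
    have h1 : 26 ≤ q - 1 := by omega
    calc 14 * (q ^ 2) ^ 3 = q ^ 3 * 14 * q ^ 3 := by ring
      _ ≤ q ^ 3 * 26 * (q ^ 3 + 1) := by gcongr <;> norm_num
      _ ≤ _ := Nat.mul_le_mul_right _ (Nat.mul_le_mul_left _ h1)
  rcases Nat.lt_or_ge m 2 with hm3 | hm3
  · obtain rfl : m = 1 := by omega
    refine no_num hp h he hpX hN (Or.inr ?_)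
    rw [hq] at ho
    norm_num at ho
    rw [ho]
    decide +kernel
  · refine no_num hp h he hpX hN (Or.inl ?_)
    have hq128 : 243 ≤ q := by
      calc 243 = 3 ^ 5 := by norm_num
        _ ≤ q := Nat.pow_le_pow_right (by norm_num) (by omega)
    rw [ho]
    calc (14 ^ 2 + 1) ^ 5 * 14 ^ 3 ≤ 243 ^ 3 * (243 - 1) * (243 ^ 3 + 1) := by norm_num
      _ ≤ _ := by gcongr

theorem tf4 {p e m o : ℕ} (hp : p.Prime) (hm : 1 ≤ m)
    (ho : o = (2 ^ (2 * m + 1)) ^ 12 * (2 ^ (2 * m + 1) - 1) *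
      ((2 ^ (2 * m + 1)) ^ 3 + 1) * ((2 ^ (2 * m + 1)) ^ 4 - 1) * ((2 ^ (2 * m + 1)) ^ 6 + 1))
    (hd : p ∣ o) (hsq : ¬ p ^ 2 ∣ o) (h : Num p e o) (he : ¬ p ∣ 2 ^ (2 * m + 1) → e ≤ 52) : False := by
  set q := 2 ^ (2 * m + 1) with hq
  have hq8 : 8 ≤ q := by
    calc 8 = 2 ^ 3 := by norm_num
      _ ≤ q := Nat.pow_le_pow_right (by norm_num) (by omega)
  have hpq : ¬ p ∣ q := by
    refine cop_of (E := 12) (d := 1) hsq (by omega) (Nat.coprime_one_left _) ?_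
    rw [ho, one_mul]
    exact Dvd.intro ((q - 1) * (q ^ 3 + 1) * (q ^ 4 - 1) * (q ^ 6 + 1)) (by ring)
  replace he := he hpq
  have hpX : p ≤ q ^ 6 + 1 := by
    rw [ho, hp.dvd_mul, hp.dvd_mul, hp.dvd_mul, hp.dvd_mul] at hd
    rcases hd with (((hd | hd) | hd) | hd) | hd
    · exact absurd (hp.dvd_of_dvd_pow hd) hpq
    · have h9 : p ∣ q ^ 1 - 1 := by rw [pow_one]; exact hd
      have h10 := le_X (p := p) (q := q) 1 6 (by norm_num) (by norm_num) (by omega) h9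
      omega
    · have := le_X' 3 6 (by norm_num) (by omega : 2 ≤ q) hd
      omega
    · have := le_X 4 6 (by norm_num) (by norm_num) (by omega : 2 ≤ q) hd
      omega
    · exact Nat.le_of_dvd (by omega) hd
  have hlow : q ^ 24 * 7 ≤ o := by
    rw [ho]
    calc q ^ 24 * 7 = q ^ 12 * 7 * q ^ 3 * q ^ 3 * q ^ 6 := by ring
      _ ≤ _ := by
        gcongr
        · omega
        · omega
        · exact sub_ge 3 (by omega)
        · omega
  refine no_num hp h he hpX ?_ (Or.inl ?_)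
  · refine le_trans ?_ hlow
    calc 52 * (q ^ 6 + 1) ^ 3 ≤ 52 * (8 * q ^ (3 * 6)) := by gcongr; exact add_one_cube (by omega)
      _ = 416 * q ^ 18 := by ring
      _ ≤ 8 ^ 6 * q ^ 18 := by gcongr; norm_num
      _ ≤ q ^ 6 * q ^ 18 := by gcongr
      _ = q ^ 24 * 1 := by ring
      _ ≤ q ^ 24 * 7 := by gcongr; norm_num
  · refine le_trans ?_ hlow
    calc (52 ^ 2 + 1) ^ 5 * 52 ^ 3 ≤ 8 ^ 24 * 7 := by norm_num
      _ ≤ q ^ 24 * 7 := by gcongr

end Cfsg.Agent.H570.Fam
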