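import Cfsg.Agent.H570.PNil

/-!
Subgroups generated by Sylow `p`-subgroups of order `p` in a group with less than `p ^ 2` Sylow
`p`-subgroups.
-/

set_option autoImplicit false

namespace Cfsg.Agent.H570.Gen

open Subgroup Cfsg.Agent.H571.SylowNumber Cfsg.Agent.H570.PNil

variable {G : Type*} [Group G] [Finite G] {p : ℕ} [hp : Fact p.Prime]

omit hp in
theorem finite_sub (L : Subgroup G) : Finite {Q : Sylow p G // (Q : Subgroup G) ≤ L} :=
  inferInstance

theorem card_sylow_eq_card (P : Sylow p G) {L : Subgroup G} (hP : (P : Subgroup G) ≤ L) :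
    Nat.card (Sylow p L) = Nat.card {Q : Sylow p G // (Q : Subgroup G) ≤ L} := by
  symm
  refine Nat.card_congr (Equiv.ofBijective
    (fun Q : {Q : Sylow p G // (Q : Subgroup G) ≤ L} => Q.1.subtype Q.2) ⟨?_, ?_⟩)
  · intro Q R h
    exact Subtype.ext (Sylow.subtype_injective h)
  · intro R
    obtain ⟨t, ht⟩ := MulAction.exists_smul_eq L (P.subtype hP) R
    have h1 : ((t : G) • P : Sylow p G) ≤ L := by
      intro x hx
      rw [Sylow.coe_subgroup_smul, Subgroup.mem_pointwise_smul_iff_inv_smul_mem] at hx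
      have h2 := hP hx
      have h3 : (MulAut.conj (t : G))⁻¹ • x = (t : G)⁻¹ * x * (t : G) := by
        rw [← map_inv]; simp [MulAut.smul_def]
      rw [h3] at h2
      have h4 : x = (t : G) * ((t : G)⁻¹ * x * t) * (t : G)⁻¹ := by group
      rw [h4]
      exact mul_mem (mul_mem t.2 h2) (inv_mem t.2)
    refine ⟨⟨(t : G) • P, h1⟩, ?_⟩
    rw [← ht]
    exact (Sylow.smul_subtype hP t).symm

theorem card_sylow_le (P : Sylow p G) {L₁ L₂ : Subgroup G} (hP : (P : Subgroup G) ≤ L₁)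
    (h : L₁ ≤ L₂) : Nat.card (Sylow p L₁) ≤ Nat.card (Sylow p L₂) := by
  rw [card_sylow_eq_card P hP, card_sylow_eq_card P (hP.trans h)]
  exact Nat.card_le_card_of_injective
    (fun Q : {Q : Sylow p G // (Q : Subgroup G) ≤ L₁} =>
      (⟨Q.1, Q.2.trans h⟩ : {Q : Sylow p G // (Q : Subgroup G) ≤ L₂}))
    (fun Q R h => Subtype.ext (congrArg (fun x => x.1) h))

theorem le_of_card_eq (P : Sylow p G) {L₁ L₂ : Subgroup G} (hP : (P : Subgroup G) ≤ L₁)
    (h : L₁ ≤ L₂) (he : Nat.card (Sylow p L₁) = Nat.card (Sylow p L₂)) :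
    ∀ Q : Sylow p G, (Q : Subgroup G) ≤ L₂ → (Q : Subgroup G) ≤ L₁ := by
  rw [card_sylow_eq_card P hP, card_sylow_eq_card P (hP.trans h)] at he
  have hinj : Function.Injective (fun Q : {Q : Sylow p G // (Q : Subgroup G) ≤ L₁} =>
      (⟨Q.1, Q.2.trans h⟩ : {Q : Sylow p G // (Q : Subgroup G) ≤ L₂})) :=
    fun Q R h => Subtype.ext (congrArg (fun x => x.1) h)
  have hbij := (Nat.bijective_iff_injective_and_card _).2 ⟨hinj, he⟩
  intro Q hQ
  obtain ⟨R, hR⟩ := hbij.2 ⟨Q, hQ⟩
  have : R.1 = Q := congrArg (fun x => x.1) hR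
  rw [← this]
  exact R.2

/-- Two distinct Sylow subgroups. -/
theorem succ_le_card {P Q : Sylow p G} (hPQ : P ≠ Q) {L : Subgroup G}
    (hP : (P : Subgroup G) ≤ L) (hQ : (Q : Subgroup G) ≤ L) :
    p + 1 ≤ Nat.card (Sylow p L) := by
  have h1 := card_sylow_modEq_one p L
  have h2 : 1 < Nat.card (Sylow p L) := by
    rw [card_sylow_eq_card P hP, Finite.one_lt_card_iff_nontrivial]
    exact ⟨⟨P, hP⟩, ⟨Q, hQ⟩, fun h => hPQ (congrArg (fun x => x.1) h)⟩
  have h3 : p ∣ Nat.card (Sylow p L) - 1 := (Nat.modEq_iff_dvd' h2.le).1 h1.symm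
  have := Nat.le_of_dvd (by omega) h3
  omega

omit hp in
theorem isPNil_congr {T T' : Type*} [Group T] [Group T'] (e : T ≃* T') (h : IsPNil p T) :
    IsPNil p T' := by
  obtain ⟨M, hM, hMp, hMi⟩ := h
  refine ⟨M.map e.toMonoidHom, hM.map _ e.surjective, ?_, ?_⟩
  · rwa [Nat.card_congr (M.equivMapOfInjective e.toMonoidHom e.injective).symm.toEquiv]
  · rw [← hMi]
    exact Subgroup.index_map_equiv M e

/-- The transfer of the divisibility to subgroups of an ambient group. -/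
theorem isPNil_of_le (P : Sylow p G) (hP : Nat.card P = p) {L₁ L₂ : Subgroup G}
    (hPL : (P : Subgroup G) ≤ L₁) (h : L₁ ≤ L₂) (hL : IsPNil p L₂) :
    IsPNil p L₁ ∧ Nat.card (Sylow p L₁) ∣ Nat.card (Sylow p L₂) := by
  have e : L₁.subgroupOf L₂ ≃* L₁ := Subgroup.subgroupOfEquivOfLe h
  have hP2 : Nat.card (P.subtype (hPL.trans h)) = p :=
    (Nat.card_congr (Subgroup.subgroupOfEquivOfLe (hPL.trans h)).toEquiv).trans hP
  have hle : (P.subtype (hPL.trans h) : Subgroup L₂) ≤ L₁.subgroupOf L₂ := by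
    intro x hx
    exact hPL hx
  refine ⟨isPNil_congr e (hL.subgroup _ hP2 hle), ?_⟩
  rw [← card_sylow_congr e]
  exact card_sylow_dvd hL _ hP2 hle

/-- Arithmetic: a divisor `≡ 1`. -/
theorem eq_of_dvd_of_modEq {p m n : ℕ} (hp : 2 ≤ p) (hmn : m ∣ n) (hm : m ≡ 1 [MOD p])
    (hn : n ≡ 1 [MOD p]) (hn2 : n < p ^ 2) (hm1 : m ≠ 1) (hn0 : 0 < n) : m = n := by
  obtain ⟨c, rfl⟩ := hmn
  have hc : c ≡ 1 [MOD p] := by
    have h1 : m * c ≡ 1 * c [MOD p] := hm.mul_right c
    rw [one_mul] at h1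
    exact h1.symm.trans hn
  have hm0 : 0 < m := Nat.pos_of_mul_pos_right hn0
  have hc0 : 0 < c := Nat.pos_of_mul_pos_left hn0
  by_contra hne
  have hc1 : c ≠ 1 := by
    rintro rfl
    exact hne (mul_one m).symm
  have h2 : p + 1 ≤ m := by
    have : p ∣ m - 1 := (Nat.modEq_iff_dvd' hm0).1 hm.symm
    have := Nat.le_of_dvd (by omega) this
    omega
  have h3 : p + 1 ≤ c := by
    have : p ∣ c - 1 := (Nat.modEq_iff_dvd' hc0).1 hc.symm
    have := Nat.le_of_dvd (by omega) this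
    omega
  have := Nat.mul_le_mul h2 h3
  nlinarith

/-- Key fact for subgroups with a normal `p`-complement. -/
theorem alpha (P : Sylow p G) (hP : Nat.card P = p) {L₁ L₂ : Subgroup G}
    (hPL : (P : Subgroup G) ≤ L₁) (h : L₁ ≤ L₂) (hL : IsPNil p L₂)
    (hn : Nat.card (Sylow p L₂) < p ^ 2) (hne : Nat.card (Sylow p L₁) ≠ 1) :
    ∀ Q : Sylow p G, (Q : Subgroup G) ≤ L₂ → (Q : Subgroup G) ≤ L₁ := by
  have h1 := (isPNil_of_le P hP hPL h hL).2
  exact le_of_card_eq P hPL h (eq_of_dvd_of_modEq hp.out.two_le h1 (card_sylow_modEq_one p L₁)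
    (card_sylow_modEq_one p L₂) hn hne Nat.card_pos)

/-- The linear space argument: if any two Sylow subgroups generate a subgroup with a normal
`p`-complement then any two of them generate a subgroup containing all the others. -/
theorem linear_space (hord : ∀ P : Sylow p G, Nat.card P = p) (hn : Nat.card (Sylow p G) < p ^ 2)
    (hall : ∀ P Q : Sylow p G, P ≠ Q → IsPNil p ((P : Subgroup G) ⊔ Q : Subgroup G))
    {P Q : Sylow p G} (hPQ : P ≠ Q) (R : Sylow p G) : (R : Subgroup G) ≤ (P : Subgroup G) ⊔ Q := by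
  classical
  by_contra hR
  have := Fintype.ofFinite (Sylow p G)
  have hlt : ∀ (S : Sylow p G) (L : Subgroup G), (S : Subgroup G) ≤ L →
      Nat.card (Sylow p L) < p ^ 2 := by
    intro S L hS
    refine lt_of_le_of_lt ?_ hn
    have h1 := card_sylow_le S hS (le_top : L ≤ ⊤)
    rwa [card_sylow_congr (Subgroup.topEquiv : (⊤ : Subgroup G) ≃* G)] at h1
  have hal : ∀ {S T U V : Sylow p G}, S ≠ T → U ≠ V → (S : Subgroup G) ≤ (U : Subgroup G) ⊔ V →
      (T : Subgroup G) ≤ (U : Subgroup G) ⊔ V → ∀ W : Sylow p G,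
      (W : Subgroup G) ≤ (U : Subgroup G) ⊔ V → (W : Subgroup G) ≤ (S : Subgroup G) ⊔ T := by
    intro S T U V hST hUV hS hT
    refine alpha S (hord S) le_sup_left (sup_le hS hT) (hall U V hUV)
      (hlt S _ hS) ?_
    have := succ_le_card hST (le_sup_left : (S : Subgroup G) ≤ (S : Subgroup G) ⊔ T) le_sup_right
    have := hp.out.pos
    omega
  let A : Finset (Sylow p G) := Finset.univ.filter fun S => (S : Subgroup G) ≤ (P : Subgroup G) ⊔ Q
  let B : Sylow p G → Finset (Sylow p G) := fun S =>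
    (Finset.univ.filter fun T : Sylow p G => (T : Subgroup G) ≤ (R : Subgroup G) ⊔ S).erase R
  have hcard : ∀ (S T : Sylow p G), S ≠ T → p + 1 ≤ (Finset.univ.filter fun U : Sylow p G =>
      (U : Subgroup G) ≤ (S : Subgroup G) ⊔ T).card := by
    intro S T hST
    have h1 := succ_le_card hST (le_sup_left : (S : Subgroup G) ≤ (S : Subgroup G) ⊔ T) le_sup_right
    rw [card_sylow_eq_card S le_sup_left] at h1
    rwa [Nat.card_eq_fintype_card, Fintype.card_subtype] at h1
  have hA : p + 1 ≤ A.card := hcard P Q hPQ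
  have hne : ∀ S ∈ A, R ≠ S := by
    rintro S hS rfl
    exact hR (Finset.mem_filter.1 hS).2
  have hB : ∀ S ∈ A, p ≤ (B S).card := by
    intro S hS
    have h1 := hcard R S (hne S hS)
    have h2 : R ∈ Finset.univ.filter fun U : Sylow p G =>
        (U : Subgroup G) ≤ (R : Subgroup G) ⊔ S := by
      rw [Finset.mem_filter]
      exact ⟨Finset.mem_univ _, le_sup_left⟩
    have h3 : (B S).card = _ := Finset.card_erase_of_mem h2
    omega
  have hdisj : ∀ S ∈ A, ∀ T ∈ A, S ≠ T → Disjoint (B S) (B T) := by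
    intro S hS T hT hST
    rw [Finset.disjoint_left]
    intro U hU hU'
    have hUR := Finset.ne_of_mem_erase hU
    have h1 := (Finset.mem_filter.1 (Finset.mem_of_mem_erase hU)).2
    have h2 := (Finset.mem_filter.1 (Finset.mem_of_mem_erase hU')).2
    -- `S ≤ R ⊔ U ≤ R ⊔ T`
    have h3 : (S : Subgroup G) ≤ (R : Subgroup G) ⊔ U :=
      hal (Ne.symm hUR) (hne S hS) le_sup_left h1 S le_sup_right
    have h4 : (S : Subgroup G) ≤ (R : Subgroup G) ⊔ T := h3.trans (sup_le le_sup_left h2)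
    -- `R ≤ S ⊔ T`
    have h5 : (R : Subgroup G) ≤ (S : Subgroup G) ⊔ T :=
      hal hST (hne T hT) h4 le_sup_right R le_sup_left
    exact hR (h5.trans (sup_le (Finset.mem_filter.1 hS).2 (Finset.mem_filter.1 hT).2))
  have h1 : (A.biUnion B).card ≤ (Finset.univ.erase R).card := by
    apply Finset.card_le_card
    intro U hU
    obtain ⟨S, -, hU⟩ := Finset.mem_biUnion.1 hU
    rw [Finset.mem_erase]
    exact ⟨Finset.ne_of_mem_erase hU, Finset.mem_univ _⟩
  rw [Finset.card_biUnion (fun S hS T hT hST => hdisj S hS T hT hST),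
    Finset.card_erase_of_mem (Finset.mem_univ _), Finset.card_univ, ← Nat.card_eq_fintype_card] at h1
  have h2 : A.card * p ≤ ∑ S ∈ A, (B S).card := by
    rw [← smul_eq_mul]
    exact Finset.card_nsmul_le_sum _ _ _ hB
  have h3 : (p + 1) * p ≤ A.card * p := Nat.mul_le_mul_right _ hA
  have h4 : (p + 1) * p = p ^ 2 + p := by ring
  omega

end Cfsg.Agent.H570.Gen
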