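import Mathlib

/-!
General inequalities for the orders of the classical groups.
-/

set_option autoImplicit false

namespace Cfsg.Agent.H570.Ineq

theorem pow_two_ge (n : ℕ) (hn : 5 ≤ n) : 33 ^ 3 * (n * n) ≤ 32 ^ 3 * 2 ^ n := by
  induction n, hn using Nat.le_induction with
  | base => norm_num
  | succ n hn ih =>
    have h1 : (n + 1) * (n + 1) ≤ 2 * (n * n) := by nlinarith
    calc 33 ^ 3 * ((n + 1) * (n + 1)) ≤ 33 ^ 3 * (2 * (n * n)) := by gcongr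
      _ = 2 * (33 ^ 3 * (n * n)) := by ring
      _ ≤ 2 * (32 ^ 3 * 2 ^ n) := by gcongr
      _ = 32 ^ 3 * 2 ^ (n + 1) := by rw [pow_succ]; ring

/-- (I1) -/
theorem i1 {n q : ℕ} (hn : 5 ≤ n) (hq : 2 ≤ q) : n * (n * (q ^ n + 1) ^ 3) ≤ q ^ (n * (n - 1)) := by
  have h1 : 32 ≤ q ^ n := by
    calc 32 = 2 ^ 5 := by norm_num
      _ ≤ 2 ^ n := Nat.pow_le_pow_right (by norm_num) hn
      _ ≤ q ^ n := Nat.pow_le_pow_left hq n
  have h2 : 32 * (q ^ n + 1) ≤ 33 * q ^ n := by omega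
  have h3 : 32 ^ 3 * (q ^ n + 1) ^ 3 ≤ 33 ^ 3 * (q ^ n) ^ 3 := by
    rw [← mul_pow, ← mul_pow]; gcongr
  have h4 : 33 ^ 3 * (n * n) ≤ 32 ^ 3 * q ^ n :=
    (pow_two_ge n hn).trans (Nat.mul_le_mul_left _ (Nat.pow_le_pow_left hq n))
  have h5 : q ^ (4 * n) ≤ q ^ (n * (n - 1)) := by
    apply Nat.pow_le_pow_right (by omega)
    rw [mul_comm]
    exact Nat.mul_le_mul_left _ (by omega)
  refine le_trans ?_ h5
  have h6 : 32 ^ 3 * (n * (n * (q ^ n + 1) ^ 3)) ≤ 32 ^ 3 * q ^ (4 * n) := by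
    calc 32 ^ 3 * (n * (n * (q ^ n + 1) ^ 3)) = (n * n) * (32 ^ 3 * (q ^ n + 1) ^ 3) := by ring
      _ ≤ (n * n) * (33 ^ 3 * (q ^ n) ^ 3) := by gcongr
      _ = (33 ^ 3 * (n * n)) * (q ^ n) ^ 3 := by ring
      _ ≤ (32 ^ 3 * q ^ n) * (q ^ n) ^ 3 := by gcongr
      _ = 32 ^ 3 * q ^ (4 * n) := by
        rw [mul_assoc, ← pow_succ', ← pow_mul, mul_comm n (3 + 1)]
  exact Nat.le_of_mul_le_mul_left h6 (by norm_num)

theorem sq_add_one_le (n : ℕ) (hn : 7 ≤ n) : n ^ 2 + 1 ≤ 2 ^ (n - 1) := by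
  induction n, hn using Nat.le_induction with
  | base => norm_num
  | succ n hn ih =>
    have h1 : (n + 1) ^ 2 + 1 ≤ 2 * (n ^ 2 + 1) := by nlinarith
    have h2 : 2 ^ (n + 1 - 1) = 2 * 2 ^ (n - 1) := by
      rw [← pow_succ']; congr 1; omega
    rw [h2]
    omega

/-- (I2) -/
theorem i2 {n q : ℕ} (hn : 7 ≤ n) (hq : 2 ≤ q) :
    n * ((n ^ 2 + 1) ^ 5 * n ^ 3) ≤ q ^ (n * (n - 1)) := by
  have h1 := sq_add_one_le n hn
  have h2 : 2 ^ (n * (n - 1)) ≤ q ^ (n * (n - 1)) := Nat.pow_le_pow_left hq _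
  refine le_trans ?_ h2
  calc n * ((n ^ 2 + 1) ^ 5 * n ^ 3) = (n ^ 2 + 1) ^ 5 * (n ^ 2) ^ 2 := by ring
    _ ≤ (n ^ 2 + 1) ^ 5 * (n ^ 2 + 1) ^ 2 := by gcongr; omega
    _ = (n ^ 2 + 1) ^ 7 := by rw [← pow_add]
    _ ≤ (n ^ 2 + 1) ^ n := Nat.pow_le_pow_right (by omega) hn
    _ ≤ (2 ^ (n - 1)) ^ n := Nat.pow_le_pow_left h1 _
    _ = 2 ^ (n * (n - 1)) := by rw [← pow_mul, mul_comm]

theorem lin_le (m : ℕ) (hm : 3 ≤ m) : 16 * (2 * m + 1) ≤ 2 ^ (3 * m) := by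
  induction m, hm using Nat.le_induction with
  | base => norm_num
  | succ m hm ih =>
    have : 2 ^ (3 * (m + 1)) = 8 * 2 ^ (3 * m) := by
      rw [show 3 * (m + 1) = 3 + 3 * m by ring, pow_add]; norm_num
    rw [this]
    omega

theorem lin_le' (m : ℕ) (hm : 4 ≤ m) : 64 * m ≤ 2 ^ (3 * m) := by
  induction m, hm using Nat.le_induction with
  | base => norm_num
  | succ m hm ih =>
    have : 2 ^ (3 * (m + 1)) = 8 * 2 ^ (3 * m) := by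
      rw [show 3 * (m + 1) = 3 + 3 * m by ring, pow_add]; norm_num
    rw [this]
    omega

theorem add_one_cube {m q : ℕ} (hq : 1 ≤ q) : (q ^ m + 1) ^ 3 ≤ 8 * q ^ (3 * m) := by
  have h1 : 1 ≤ q ^ m := Nat.one_le_pow _ _ hq
  calc (q ^ m + 1) ^ 3 ≤ (2 * q ^ m) ^ 3 := by gcongr; omega
    _ = 8 * q ^ (3 * m) := by rw [mul_pow, ← pow_mul, mul_comm m 3]; norm_num

/-- (I3) symplectic and odd orthogonal, first inequality -/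
theorem i3 {m q N : ℕ} (hm : 3 ≤ m) (hq : 2 ≤ q) (hN : N ≤ 2 * m + 1) :
    2 * (N * (q ^ m + 1) ^ 3) ≤ q ^ (m ^ 2) * q ^ (m ^ 2) := by
  calc 2 * (N * (q ^ m + 1) ^ 3) ≤ 2 * ((2 * m + 1) * (8 * q ^ (3 * m))) := by
        gcongr; exact add_one_cube (by omega)
    _ = (16 * (2 * m + 1)) * q ^ (3 * m) := by ring
    _ ≤ 2 ^ (3 * m) * q ^ (3 * m) := Nat.mul_le_mul_right _ (lin_le m hm)
    _ ≤ q ^ (3 * m) * q ^ (3 * m) := by gcongr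
    _ ≤ q ^ (m ^ 2) * q ^ (m ^ 2) := by
      have : 3 * m ≤ m ^ 2 := by nlinarith
      gcongr <;> omega

/-- (I3') even orthogonal, first inequality -/
theorem i3' {m q : ℕ} (hm : 4 ≤ m) (hq : 2 ≤ q) :
    4 * (2 * m * (q ^ m + 1) ^ 3) ≤ q ^ (2 * (m * (m - 1))) := by
  calc 4 * (2 * m * (q ^ m + 1) ^ 3) ≤ 4 * (2 * m * (8 * q ^ (3 * m))) := by
        gcongr; exact add_one_cube (by omega)
    _ = (64 * m) * q ^ (3 * m) := by ring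
    _ ≤ 2 ^ (3 * m) * q ^ (3 * m) := Nat.mul_le_mul_right _ (lin_le' m hm)
    _ ≤ q ^ (3 * m) * q ^ (3 * m) := by gcongr
    _ = q ^ (6 * m) := by rw [← pow_add]; congr 1; ring
    _ ≤ q ^ (2 * (m * (m - 1))) := by
      apply Nat.pow_le_pow_right (by omega)
      obtain ⟨k, rfl⟩ : ∃ k, m = k + 4 := ⟨m - 4, by omega⟩
      rw [show k + 4 - 1 = k + 3 by omega]
      nlinarith

theorem four_sq_le (m : ℕ) (hm : 5 ≤ m) : 4 * m ^ 2 + 1 ≤ 2 ^ (m + 2) := by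
  induction m, hm using Nat.le_induction with
  | base => norm_num
  | succ m hm ih =>
    have h1 : 4 * (m + 1) ^ 2 + 1 ≤ 2 * (4 * m ^ 2 + 1) := by nlinarith
    have h2 : 2 ^ (m + 1 + 2) = 2 * 2 ^ (m + 2) := by rw [← pow_succ']
    rw [h2]
    omega

/-- (I4) symplectic, second inequality -/
theorem i4 {m q : ℕ} (hm : 5 ≤ m) (hq : 2 ≤ q) :
    2 * (((2 * m) ^ 2 + 1) ^ 5 * (2 * m) ^ 3) ≤ q ^ (m ^ 2) * q ^ (m ^ 2) := by
  have h1 := four_sq_le m hm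
  have h0 : 2 * (2 * m) ^ 3 ≤ (4 * m ^ 2 + 1) ^ 2 := by nlinarith [sq_nonneg (m ^ 2), sq_nonneg m]
  calc 2 * (((2 * m) ^ 2 + 1) ^ 5 * (2 * m) ^ 3) = (4 * m ^ 2 + 1) ^ 5 * (2 * (2 * m) ^ 3) := by ring
    _ ≤ (4 * m ^ 2 + 1) ^ 5 * (4 * m ^ 2 + 1) ^ 2 := by gcongr
    _ = (4 * m ^ 2 + 1) ^ 7 := by rw [← pow_add]
    _ ≤ (2 ^ (m + 2)) ^ 7 := by gcongr
    _ = 2 ^ (7 * m + 14) := by rw [← pow_mul]; congr 1; ring
    _ ≤ 2 ^ (m ^ 2 + m ^ 2) := by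
      apply Nat.pow_le_pow_right (by norm_num)
      nlinarith
    _ ≤ q ^ (m ^ 2 + m ^ 2) := Nat.pow_le_pow_left hq _
    _ = q ^ (m ^ 2) * q ^ (m ^ 2) := pow_add _ _ _

/-- (I4'') even orthogonal, second inequality -/
theorem i4'' {m q : ℕ} (hm : 6 ≤ m) (hq : 2 ≤ q) :
    4 * (((2 * m) ^ 2 + 1) ^ 5 * (2 * m) ^ 3) ≤ q ^ (2 * (m * (m - 1))) := by
  have h1 := four_sq_le m (by omega)
  have h0 : 4 * (2 * m) ^ 3 ≤ (4 * m ^ 2 + 1) ^ 2 := by nlinarith [sq_nonneg (m ^ 2), sq_nonneg m]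
  calc 4 * (((2 * m) ^ 2 + 1) ^ 5 * (2 * m) ^ 3) = (4 * m ^ 2 + 1) ^ 5 * (4 * (2 * m) ^ 3) := by ring
    _ ≤ (4 * m ^ 2 + 1) ^ 5 * (4 * m ^ 2 + 1) ^ 2 := by gcongr
    _ = (4 * m ^ 2 + 1) ^ 7 := by rw [← pow_add]
    _ ≤ (2 ^ (m + 2)) ^ 7 := by gcongr
    _ = 2 ^ (7 * m + 14) := by rw [← pow_mul]; congr 1; ring
    _ ≤ 2 ^ (2 * (m * (m - 1))) := by
      apply Nat.pow_le_pow_right (by norm_num)
      obtain ⟨k, rfl⟩ : ∃ k, m = k + 6 := ⟨m - 6, by omega⟩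
      rw [show k + 6 - 1 = k + 5 by omega]
      nlinarith
    _ ≤ q ^ (2 * (m * (m - 1))) := Nat.pow_le_pow_left hq _

theorem odd_sq_le (m : ℕ) (hm : 4 ≤ m) : (2 * m + 1) ^ 2 + 1 ≤ 3 ^ (m + 1) := by
  induction m, hm using Nat.le_induction with
  | base => norm_num
  | succ m hm ih =>
    have h1 : (2 * (m + 1) + 1) ^ 2 + 1 ≤ 3 * ((2 * m + 1) ^ 2 + 1) := by nlinarith
    have h2 : 3 ^ (m + 1 + 1) = 3 * 3 ^ (m + 1) := by rw [← pow_succ']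
    rw [h2]
    omega

/-- (I4') odd orthogonal, second inequality -/
theorem i4' {m q : ℕ} (hm : 4 ≤ m) (hq : 3 ≤ q) :
    2 * (((2 * m + 1) ^ 2 + 1) ^ 5 * (2 * m + 1) ^ 3) ≤ q ^ (m ^ 2) * q ^ (m ^ 2) := by
  rcases eq_or_lt_of_le hm with rfl | hm5
  · calc _ ≤ 3 ^ (4 ^ 2) * 3 ^ (4 ^ 2) := by norm_num
      _ ≤ q ^ (4 ^ 2) * q ^ (4 ^ 2) := by gcongr
  have h1 := odd_sq_le m hm
  have h0 : 2 * (2 * m + 1) ^ 3 ≤ ((2 * m + 1) ^ 2 + 1) ^ 2 := by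
    have : 9 ≤ 2 * m + 1 := by omega
    nlinarith [sq_nonneg ((2 * m + 1) ^ 2), sq_nonneg (2 * m + 1)]
  calc 2 * (((2 * m + 1) ^ 2 + 1) ^ 5 * (2 * m + 1) ^ 3)
      = ((2 * m + 1) ^ 2 + 1) ^ 5 * (2 * (2 * m + 1) ^ 3) := by ring
    _ ≤ ((2 * m + 1) ^ 2 + 1) ^ 5 * ((2 * m + 1) ^ 2 + 1) ^ 2 := by gcongr
    _ = ((2 * m + 1) ^ 2 + 1) ^ 7 := by rw [← pow_add]
    _ ≤ (3 ^ (m + 1)) ^ 7 := by gcongr
    _ = 3 ^ (7 * m + 7) := by rw [← pow_mul]; congr 1; ring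
    _ ≤ 3 ^ (m ^ 2 + m ^ 2) := by
      apply Nat.pow_le_pow_right (by norm_num)
      nlinarith
    _ ≤ q ^ (m ^ 2 + m ^ 2) := Nat.pow_le_pow_left hq _
    _ = q ^ (m ^ 2) * q ^ (m ^ 2) := pow_add _ _ _

/-! ### products -/

/-- `∏ (q ^ n - q ^ i) ≥ q ^ (n (n - 1)) (q - 1)` -/
theorem prod_gl_ge {n q : ℕ} (hn : 1 ≤ n) (hq : 2 ≤ q) :
    q ^ (n * (n - 1)) * (q - 1) ≤ ∏ i ∈ Finset.range n, (q ^ n - q ^ i) := by
  obtain ⟨m, rfl⟩ : ∃ m, n = m + 1 := ⟨n - 1, by omega⟩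
  rw [Finset.prod_range_succ, Nat.add_sub_cancel]
  have h1 : q ^ (m + 1) - q ^ m = q ^ m * (q - 1) := by
    rw [pow_succ, Nat.mul_sub, mul_one]
  have h2 : (q ^ m) ^ m ≤ ∏ i ∈ Finset.range m, (q ^ (m + 1) - q ^ i) := by
    have : ∏ _i ∈ Finset.range m, q ^ m = (q ^ m) ^ m := by
      rw [Finset.prod_const, Finset.card_range]
    rw [← this]
    apply Finset.prod_le_prod' 
    intro i hi
    rw [Finset.mem_range] at hi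
    have h3 : q ^ i ≤ q ^ m := Nat.pow_le_pow_right (by omega) hi.le
    have h4 : q ^ (m + 1) = q ^ m * q := pow_succ _ _
    have h5 : q ^ m * 2 ≤ q ^ m * q := Nat.mul_le_mul_left _ hq
    omega
  rw [h1]
  calc q ^ ((m + 1) * m) * (q - 1) = (q ^ m) ^ m * (q ^ m * (q - 1)) := by
        rw [← pow_mul, ← mul_assoc, ← pow_add]; congr 2; ring
    _ ≤ _ := Nat.mul_le_mul_right _ h2

theorem prod_b_ge {m q : ℕ} (hq : 2 ≤ q) :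
    q ^ (m ^ 2) ≤ ∏ i ∈ Finset.range m, (q ^ (2 * (i + 1)) - 1) := by
  induction m with
  | zero => simp
  | succ m ih =>
    rw [Finset.prod_range_succ]
    have h1 : q ^ (2 * m + 1) ≤ q ^ (2 * (m + 1)) - 1 := by
      have h2 : q ^ (2 * (m + 1)) = q ^ (2 * m + 1) * q := by rw [← pow_succ]; rfl
      have h3 : q ^ (2 * m + 1) * 2 ≤ q ^ (2 * m + 1) * q := Nat.mul_le_mul_left _ hq
      have h4 : 1 ≤ q ^ (2 * m + 1) := Nat.one_le_pow _ _ (by omega)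
      omega
    calc q ^ ((m + 1) ^ 2) = q ^ (m ^ 2) * q ^ (2 * m + 1) := by rw [← pow_add]; congr 1; ring
      _ ≤ _ := Nat.mul_le_mul ih h1

/-- the unitary factor -/
def uf (q i : ℕ) : ℕ := if Even i then q ^ (i + 1) + 1 else q ^ (i + 1) - 1

theorem uf_ge {q i : ℕ} (hq : 2 ≤ q) : q ^ i ≤ uf q i := by
  unfold uf
  have h2 : q ^ (i + 1) = q ^ i * q := pow_succ _ _
  have h3 : q ^ i * 2 ≤ q ^ i * q := Nat.mul_le_mul_left _ hq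
  have h4 : 1 ≤ q ^ i := Nat.one_le_pow _ _ (by omega)
  split_ifs <;> omega

theorem prod_u_ge {n q : ℕ} (hn : 1 ≤ n) (hq : 2 ≤ q) :
    q ^ (n * (n - 1) / 2) * (q + 1) ≤ ∏ i ∈ Finset.range n, uf q i := by
  obtain ⟨m, rfl⟩ : ∃ m, n = m + 1 := ⟨n - 1, by omega⟩
  rw [Finset.prod_range_succ']
  have h0 : uf q 0 = q + 1 := by simp [uf]
  rw [h0]
  apply Nat.mul_le_mul_right
  rw [← Finset.sum_range_id, ← Finset.prod_pow_eq_pow_sum, Finset.prod_range_succ']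
  simp only [pow_zero, mul_one]
  exact Finset.prod_le_prod' fun i _ => uf_ge hq

theorem prime_le_of_dvd_sub_one {p q k : ℕ} (hp : p.Prime) (hq : 2 ≤ q) (hk : 1 ≤ k)
    (h : p ∣ q ^ (2 * k) - 1) : p ≤ q ^ k + 1 := by
  have h1 : q ^ (2 * k) - 1 = (q ^ k + 1) * (q ^ k - 1) := by
    rw [mul_comm 2 k, pow_mul, ← Nat.sq_sub_sq, one_pow]
  have h2 : 2 ≤ q ^ k := by
    calc 2 ≤ q := hq
      _ = q ^ 1 := (pow_one q).symm
      _ ≤ q ^ k := Nat.pow_le_pow_right (by omega) hk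
  rw [h1] at h
  rcases (hp.dvd_mul).1 h with h | h
  · exact Nat.le_of_dvd (by omega) h
  · have := Nat.le_of_dvd (by omega) h
    omega

end Cfsg.Agent.H570.Ineq
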