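import Cfsg.Agent.H570.LinDim
import Cfsg.Agent.H570.FamC
import Cfsg.Agent.H570.FamD
import Cfsg.Agent.H570.FamE
import Cfsg.Agent.S0999

/-!
The case split over the known simple groups.
-/

set_option autoImplicit false

namespace Cfsg.Agent.H570.Known

open Subgroup Cfsg.Agent.H570.Data Cfsg.Agent.OrdDiv Cfsg.Agent.SmallSimple

universe u

theorem cast_ne_zero {F : Type*} [Field F] [Fintype F] {p : ℕ} (hp : p.Prime)
    (h : ¬ p ∣ Fintype.card F) : (p : F) ≠ 0 := by
  intro h0
  apply h
  have h1 : ringChar F ∣ p := (ringChar.spec F p).1 h0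
  have h2 : ringChar F ∣ Fintype.card F := (ringChar.spec F _).1 (FiniteField.cast_card_eq_zero F)
  rcases (Nat.dvd_prime hp).1 h1 with h3 | h3
  · have : (1 : F) = 0 := by
      have := (ringChar.spec F 1).2 (by rw [h3])
      simp at this
    exact absurd this one_ne_zero
  · rw [← h3]; exact h2

section lin

variable {S : Type*} [Group S] [Finite S] [IsSimpleGroup S] {p : ℕ} [hp : Fact p.Prime]

/-- the linear bound for `S ≃ Γ / Z(Γ)` -/
theorem lin (hS : ¬ IsMulCommutative S) (hord : ∀ P : Sylow p S, Nat.card P = p) {e : ℕ}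
    (he : ∀ P : Sylow p S, (centralizer (P : Set S)).relIndex (normalizer (P : Set S)) = e)
    {Γ : Type*} [Group Γ] [Finite Γ] (f : S ≃* Γ ⧸ center Γ) {F : Type*} [Field F] [Fintype F]
    {ι : Type*} [Fintype ι] [DecidableEq ι] (ρ : Γ →* GL ι F) (hρ : Function.Injective ρ)
    (hpq : ¬ p ∣ Fintype.card F) : e ≤ Fintype.card ι := by
  obtain ⟨P⟩ : Nonempty (Sylow p S) := inferInstance
  rw [← he P]
  refine LinDim.relIndex_le_dim (LargePrime.commutator_eq_top hS)
    (π := f.symm.toMonoidHom.comp (QuotientGroup.mk' (center Γ))) ?_ ?_ hord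
    (cast_ne_zero hp.out hpq) ρ hρ P
  · intro x hx
    rw [MonoidHom.mem_ker, MonoidHom.comp_apply] at hx
    have h1 : QuotientGroup.mk' (center Γ) x = 1 := by
      apply f.symm.injective
      rw [map_one]
      exact hx
    rwa [← MonoidHom.mem_ker, QuotientGroup.ker_mk'] at h1
  · intro s
    obtain ⟨x, hx⟩ := QuotientGroup.mk'_surjective (center Γ) (f s)
    refine ⟨x, ?_⟩
    rw [MonoidHom.comp_apply, hx]
    exact f.symm_apply_apply s

/-- the linear bound for `S ≃ Γ` -/
theorem lin' (hS : ¬ IsMulCommutative S) (hord : ∀ P : Sylow p S, Nat.card P = p) {e : ℕ}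
    (he : ∀ P : Sylow p S, (centralizer (P : Set S)).relIndex (normalizer (P : Set S)) = e)
    {F : Type*} [Field F] [Fintype F]
    {ι : Type*} [Fintype ι] [DecidableEq ι] {Γ : Subgroup (GL ι F)} (f : S ≃* Γ)
    (hpq : ¬ p ∣ Fintype.card F) : e ≤ Fintype.card ι := by
  obtain ⟨P⟩ : Nonempty (Sylow p S) := inferInstance
  rw [← he P]
  refine LinDim.relIndex_le_dim (LargePrime.commutator_eq_top hS)
    (π := f.symm.toMonoidHom) ?_ f.symm.surjective hord
    (cast_ne_zero hp.out hpq) Γ.subtype Γ.subtype_injective P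
  intro x hx
  have h1 : x = 1 := f.symm.injective (by rw [map_one]; exact hx)
  rw [h1]
  exact one_mem _

end lin

/-- the list of S4340 -/
def List' (p : ℕ) (S : Type u) [Group S] : Prop :=
  ((∃ (F : Type) (_ : Field F) (_ : Fintype F), Fintype.card F = p ∧
          Nonempty (S ≃* Matrix.ProjectiveSpecialLinearGroup (Fin 2) F)) ∨
       (p = 13 ∧ ∃ (F : Type) (_ : Field F) (_ : Fintype F), Fintype.card F = 3 ∧
          Nonempty (S ≃* Matrix.ProjectiveSpecialLinearGroup (Fin 3) F)) ∨
       (3 < p ∧ (∃ k : ℕ, p = 2 ^ k + 1) ∧ ∃ (F : Type) (_ : Field F) (_ : Fintype F), Fintype.card F = p - 1 ∧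
          Nonempty (S ≃* Matrix.ProjectiveSpecialLinearGroup (Fin 2) F)) ∨
       (3 < p ∧ (∃ k : ℕ, p + 1 = 2 ^ k) ∧ ∃ (F : Type) (_ : Field F) (_ : Fintype F), Fintype.card F = p + 1 ∧
          Nonempty (S ≃* Matrix.ProjectiveSpecialLinearGroup (Fin 2) F)))

/-- order of `PSL_2(q)` -/
theorem card_psl2 (F : Type) [Field F] [Fintype F] :
    Nat.gcd 2 (Fintype.card F - 1) * Nat.card (Matrix.ProjectiveSpecialLinearGroup (Fin 2) F) =
      Fintype.card F * (Fintype.card F ^ 2 - 1) := by
  have h := S0243.result (F := F) rfl 2 (by norm_num)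
  set q := Fintype.card F with hq
  have hq2 : 1 < q := Fintype.one_lt_card
  rw [Fin.prod_univ_two] at h
  simp only [Fin.val_zero, Fin.val_one, pow_zero, pow_one] at h
  have e1 : q ^ 2 - q = q * (q - 1) := by rw [sq, Nat.mul_sub, mul_one]
  rw [e1] at h
  have : (q - 1) * (Nat.gcd 2 (q - 1) * Nat.card (Matrix.ProjectiveSpecialLinearGroup (Fin 2) F)) =
      (q - 1) * (q * (q ^ 2 - 1)) := by
    calc _ = Nat.gcd 2 (q - 1) * ((q - 1) * Nat.card (Matrix.ProjectiveSpecialLinearGroup (Fin 2) F)) := by
          ring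
      _ = _ := h
      _ = _ := by ring
  exact Nat.eq_of_mul_eq_mul_left (by omega) this

variable {S : Type u} [Group S] [Finite S] [IsSimpleGroup S] {p : ℕ} [hp : Fact p.Prime]

/-- **The case split.** -/
theorem known (T : OrderTable.{u}) (hS : ¬ IsMulCommutative S) (h : IsKnownSimple' S)
    (hd : p ∣ Nat.card S) (hsq : ¬ p ^ 2 ∣ Nat.card S) (hord : ∀ P : Sylow p S, Nat.card P = p)
    {e : ℕ} (he : ∀ P : Sylow p S, (centralizer (P : Set S)).relIndex (normalizer (P : Set S)) = e)
    (hnum : Num p e (Nat.card S)) : List' p S := by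
  have hpp := hp.out
  have key : ∀ (g : Grp), g ∈ spor.map (fun x => x.1) → Real g S → False := fun g hg hr => by
    obtain ⟨x, hx, rfl⟩ := List.mem_map.1 hg
    have h1 := T.spor S x hx hr
    rw [h1] at hnum hd
    exact Fam.spor_false hx hpp hd hnum
  rcases h with h | h | h | h | h | h | h | h | h | h
  · exfalso
    have : Fact (Nat.card S).Prime := ⟨h⟩
    have : IsCyclic S := isCyclic_of_prime_card (p := Nat.card S) rfl
    exact hS (IsCyclic.isMulCommutative (α := S))
  · obtain ⟨n, hn, ⟨f⟩⟩ := h
    obtain ⟨rfl, rfl⟩ := Fam.alt hpp hn (alt_card hn f) hd hsq hnum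
    have hc : Nat.card S = 60 := by
      have := alt_card hn f
      rw [show Nat.factorial 5 = 120 by decide] at this
      omega
    have hcyc : ¬ IsCyclic S := fun hcy => hS (IsCyclic.isMulCommutative (α := S))
    rcases S0999.result hcyc 5 hpp hd (by rw [hc]; norm_num) with
      ⟨F, _, _, h1, -, h2⟩ | ⟨m, F, _, _, h1, h2, h3, h4⟩
    · exact Or.inl ⟨F, inferInstance, inferInstance, h1, h2⟩
    · exact Or.inr (Or.inr (Or.inl ⟨h3, ⟨m, h2⟩, F, inferInstance, inferInstance, by rw [h1]; omega, h4⟩))
  · obtain ⟨F, _, _, n, hn, hn2, ⟨f⟩⟩ := h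
    have hlin := lin hS hord he (Γ := Matrix.SpecialLinearGroup (Fin n) F) f
      Matrix.SpecialLinearGroup.toGL Matrix.SpecialLinearGroup.toGL_injective
    rw [Fintype.card_fin] at hlin
    have hq := Fintype.isPrimePow_card_of_field (α := F)
    rcases Nat.lt_or_ge n 3 with hn3 | hn3
    · obtain rfl : n = 2 := by omega
      have ho := card_psl2 F
      rw [← Nat.card_congr f.toEquiv] at ho
      rcases Fam.psl2 hpp hq (hn2 rfl) ho hd hsq hnum hlin with h1 | ⟨h1, h2, h3⟩ | ⟨h1, h2, h3⟩
      · exact Or.inl ⟨F, inferInstance, inferInstance, h1, ⟨f⟩⟩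
      · exact Or.inr (Or.inr (Or.inl ⟨h1, h2, F, inferInstance, inferInstance, h3, ⟨f⟩⟩))
      · exact Or.inr (Or.inr (Or.inr ⟨h1, h2, F, inferInstance, inferInstance, h3, ⟨f⟩⟩))
    · have ho := S0243.result (F := F) rfl n hn
      rw [Fin.prod_univ_eq_prod_range (fun i => Fintype.card F ^ n - Fintype.card F ^ i) n,
        ← Nat.card_congr f.toEquiv] at ho
      obtain ⟨rfl, ⟨h2, h3⟩ | ⟨h2, h3⟩⟩ := Fam.psl hpp hq hn3 ho hd hsq hnum hlin
      · -- order 168
        have hcyc : ¬ IsCyclic S := fun hcy => hS (IsCyclic.isMulCommutative (α := S))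
        have hp7 : p = 2 ∨ p = 3 ∨ p = 7 := by
          rw [h3, show 168 = 2 ^ 3 * (3 * 7) by norm_num] at hd
          rcases (hpp.dvd_mul).1 hd with h5 | h5
          · exact Or.inl ((Nat.prime_dvd_prime_iff_eq hpp Nat.prime_two).1 (hpp.dvd_of_dvd_pow h5))
          rcases (hpp.dvd_mul).1 h5 with h5 | h5
          · exact Or.inr (Or.inl ((Nat.prime_dvd_prime_iff_eq hpp Nat.prime_three).1 h5))
          · exact Or.inr (Or.inr ((Nat.prime_dvd_prime_iff_eq hpp (by norm_num)).1 h5))
        rcases hp7 with rfl | rfl | rfl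
        · rw [h3] at hsq
          exact absurd (by norm_num) hsq
        · exfalso
          rw [h3] at hnum
          rcases Chk.cases_of hpp hnum with ⟨n, ho2, hn1, hn2, hmod, he2, hed⟩ | ⟨hp17, -⟩
          · have := Nat.le_of_dvd (by norm_num) hed
            obtain rfl : e = 2 := by omega
            omega
          · omega
        · rcases S0999.result hcyc 7 hpp hd (by rw [h3]; norm_num) with
            ⟨F', _, _, h1, -, h2⟩ | ⟨m, F', _, _, h1, h2, h3, h4⟩
          · exact Or.inl ⟨F', inferInstance, inferInstance, h1, h2⟩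
          · exfalso
            have h6 : 2 ^ m = 6 := by omega
            rcases Nat.lt_or_ge m 3 with h7 | h7
            · interval_cases m <;> omega
            · have : 2 ^ 3 ≤ 2 ^ m := Nat.pow_le_pow_right (by norm_num) h7
              omega
      · -- order 5616
        have hp7 : p = 2 ∨ p = 3 ∨ p = 13 := by
          rw [h3, show 5616 = 2 ^ 4 * (3 ^ 3 * 13) by norm_num] at hd
          rcases (hpp.dvd_mul).1 hd with h5 | h5
          · exact Or.inl ((Nat.prime_dvd_prime_iff_eq hpp Nat.prime_two).1 (hpp.dvd_of_dvd_pow h5))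
          rcases (hpp.dvd_mul).1 h5 with h5 | h5
          · exact Or.inr (Or.inl ((Nat.prime_dvd_prime_iff_eq hpp Nat.prime_three).1
              (hpp.dvd_of_dvd_pow h5)))
          · exact Or.inr (Or.inr ((Nat.prime_dvd_prime_iff_eq hpp (by norm_num)).1 h5))
        rcases hp7 with rfl | rfl | rfl
        · rw [h3] at hsq
          exact absurd (by norm_num) hsq
        · rw [h3] at hsq
          exact absurd (by norm_num) hsq
        · exact Or.inr (Or.inl ⟨rfl, F, inferInstance, inferInstance, h2, ⟨f⟩⟩)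
  · -- symplectic
    exfalso
    obtain ⟨F, _, _, m, hm, hm2, ⟨f⟩⟩ := h
    have hlin := lin hS hord he (Γ := Matrix.symplecticGroup (Fin m) F) f
      (MonoidHom.toHomUnits (Matrix.symplecticGroup (Fin m) F).subtype)
      (fun a b hab => Subtype.ext (congrArg Units.val hab))
    rw [Fintype.card_sum, Fintype.card_fin, ← two_mul] at hlin
    have ho : Nat.gcd 2 (Fintype.card F - 1) * Nat.card S =
        Fintype.card F ^ (m ^ 2) * ∏ i ∈ Finset.range m, (Fintype.card F ^ (2 * (i + 1)) - 1) := by
      have h1 := S0245.result (F := F) rfl m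
      have h2 := S0246.result (F := F) rfl m (by omega)
      have h3 := Subgroup.card_eq_card_quotient_mul_card_subgroup
        (Subgroup.center (Matrix.symplecticGroup (Fin m) F))
      rw [h1, h2] at h3
      rw [Nat.card_congr f.toEquiv, mul_comm]
      exact h3.symm
    exact Fam.psp hpp Fintype.isPrimePow_card_of_field hm hm2 ho hd hsq hnum hlin
  · -- unitary
    exfalso
    obtain ⟨F, _, _, n, q, hF, hn, hn2, ⟨f⟩⟩ := h
    have hlin := lin hS hord he (Γ := SU n F q) f
      (Matrix.SpecialLinearGroup.toGL.comp (SU n F q).subtype)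
      (Matrix.SpecialLinearGroup.toGL_injective.comp (SU n F q).subtype_injective)
    rw [Fintype.card_fin, hF] at hlin
    have hq2 : IsPrimePow (q ^ 2) := hF ▸ Fintype.isPrimePow_card_of_field
    have hqp : IsPrimePow q := (isPrimePow_pow_iff (by norm_num)).1 hq2
    have ho := S0280.result hF n (by omega)
    rw [← Nat.card_congr f.toEquiv] at ho
    exact Fam.psu hpp hqp hn hn2 ho hd hsq hnum (fun h => hlin fun h2 => h (hpp.dvd_of_dvd_pow h2))
  · -- odd orthogonal
    exfalso
    obtain ⟨F, _, _, m, hm, hodd, ⟨f⟩⟩ := h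
    have hlin := lin hS hord he (Γ := Omega F (quadFormOdd m F)) f
      ((isometryGroup F (quadFormOdd m F)).subtype.comp (Omega F (quadFormOdd m F)).subtype)
      ((isometryGroup F (quadFormOdd m F)).subtype_injective.comp
        (Omega F (quadFormOdd m F)).subtype_injective)
    have hc : Fintype.card (Unit ⊕ (Fin m ⊕ Fin m)) = 2 * m + 1 := by
      rw [Fintype.card_sum, Fintype.card_sum, Fintype.card_fin, Fintype.card_unit]; ring
    rw [hc] at hlin
    have ho := S0292.result (F := F) rfl hodd m hm
    rw [← Nat.card_congr f.toEquiv] at ho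
    exact Fam.oodd hpp Fintype.isPrimePow_card_of_field hm hodd ho hd hsq hnum hlin
  · -- plus orthogonal
    exfalso
    obtain ⟨F, _, _, m, hm, ⟨f⟩⟩ := h
    have hlin := lin hS hord he (Γ := Omega F (quadFormPlus m F)) f
      ((isometryGroup F (quadFormPlus m F)).subtype.comp (Omega F (quadFormPlus m F)).subtype)
      ((isometryGroup F (quadFormPlus m F)).subtype_injective.comp
        (Omega F (quadFormPlus m F)).subtype_injective)
    have hc : Fintype.card (Fin m ⊕ Fin m) = 2 * m := by
      rw [Fintype.card_sum, Fintype.card_fin]; ring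
    rw [hc] at hlin
    have ho := S0293.result (F := F) rfl m hm
    rw [← Nat.card_congr f.toEquiv, mul_assoc] at ho
    have hpos : 1 ≤ Fintype.card F ^ m := Nat.one_le_pow _ _ Fintype.card_pos
    exact Fam.oeven hpp Fintype.isPrimePow_card_of_field hm
      (x := Fintype.card F ^ m - 1) (Or.inl (by omega)) ho hd hsq hnum hlin
  · -- minus orthogonal
    exfalso
    obtain ⟨F, _, _, m, a, b, hm, hab, ⟨f⟩⟩ := h
    have hlin := lin hS hord he (Γ := Omega F (quadFormMinus (m - 1) F a b)) f
      ((isometryGroup F (quadFormMinus (m - 1) F a b)).subtype.comp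
        (Omega F (quadFormMinus (m - 1) F a b)).subtype)
      ((isometryGroup F (quadFormMinus (m - 1) F a b)).subtype_injective.comp
        (Omega F (quadFormMinus (m - 1) F a b)).subtype_injective)
    have hc : Fintype.card ((Fin (m - 1) ⊕ Fin (m - 1)) ⊕ Fin 2) = 2 * m := by
      rw [Fintype.card_sum, Fintype.card_sum, Fintype.card_fin, Fintype.card_fin]; omega
    rw [hc] at hlin
    have ho := S0294.result (F := F) rfl m hm a b hab
    rw [← Nat.card_congr f.toEquiv, mul_assoc] at ho
    exact Fam.oeven hpp Fintype.isPrimePow_card_of_field hm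
      (x := Fintype.card F ^ m + 1) (Or.inr rfl) ho hd hsq hnum hlin
  · exfalso
    rcases h with h | h | h | h | h | h | h | h | h | h | h
    · obtain ⟨F, _, _, hq, ⟨f⟩⟩ := h
      have hlin := lin' hS hord he f
      have hc : Fintype.card Lie.chevG2.Idx = 14 := by rfl
      rw [hc] at hlin
      have ho := T.g2 F
      rw [← Nat.card_congr f.toEquiv] at ho
      exact Fam.g2 hpp Fintype.isPrimePow_card_of_field hq ho hd hsq hnum hlin
    · obtain ⟨F, _, _, ⟨f⟩⟩ := h
      have hlin := lin' hS hord he f
      have hc : Fintype.card Lie.chevF4.Idx = 52 := by rfl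
      rw [hc] at hlin
      have ho := T.f4 F _ rfl
      rw [← Nat.card_congr f.toEquiv] at ho
      exact Fam.f4 hpp Fintype.one_lt_card ho hd hsq hnum hlin
    · obtain ⟨F, _, _, ⟨f⟩⟩ := h
      have hlin := lin' hS hord he f
      have hc : Fintype.card Lie.chevE6.Idx = 78 := by rfl
      rw [hc] at hlin
      have ho := T.e6 F _ rfl
      rw [← Nat.card_congr f.toEquiv] at ho
      exact Fam.e6 hpp Fintype.one_lt_card ho hd hsq hnum hlin
    · obtain ⟨F, _, _, ⟨f⟩⟩ := h
      have hlin := lin' hS hord he f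
      have hc : Fintype.card Lie.chevE7.Idx = 133 := by rfl
      rw [hc] at hlin
      have ho := T.e7 F _ rfl
      rw [← Nat.card_congr f.toEquiv] at ho
      exact Fam.e7 hpp Fintype.one_lt_card ho hd hsq hnum hlin
    · obtain ⟨F, _, _, ⟨f⟩⟩ := h
      have hlin := lin' hS hord he f
      have hc : Fintype.card Lie.chevE8.Idx = 248 := by
        rw [Fintype.card_sum, Fintype.card_fin, Fintype.card_fin]; rfl
      rw [hc] at hlin
      have ho := T.e8 F _ rfl
      rw [← Nat.card_congr f.toEquiv] at ho
      exact Fam.e8 hpp Fintype.one_lt_card ho hd hsq hnum hlin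
    · obtain ⟨F, _, _, q, hq, hF, ⟨f⟩⟩ := h
      have hlin := lin' hS hord he f
      have hc : Fintype.card Lie.chevE6.Idx = 78 := by rfl
      rw [hc, hF] at hlin
      have ho := T.te6 F q hq hF
      rw [← Nat.card_congr f.toEquiv] at ho
      exact Fam.te6 hpp hq.two_le ho hd hsq hnum (fun h => hlin fun h2 => h (hpp.dvd_of_dvd_pow h2))
    · obtain ⟨F, _, _, q, hq, hF, ⟨f⟩⟩ := h
      have hlin := lin' hS hord he f
      have hc : Fintype.card Lie.chevD4.Idx = 28 := by rfl
      rw [hc, hF] at hlin
      have ho := T.td4 F q hq hF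
      rw [← Nat.card_congr f.toEquiv] at ho
      exact Fam.td4 hpp hq.two_le ho hd hsq hnum (fun h => hlin fun h2 => h (hpp.dvd_of_dvd_pow h2))
    · obtain ⟨F, _, _, m, hm, hF, ⟨f⟩⟩ := h
      have hlin := lin' hS hord he f
      rw [Fintype.card_fin, hF] at hlin
      have ho := T.sz F m hm hF
      rw [← Nat.card_congr f.toEquiv] at ho
      exact Fam.sz hpp hm ho hd hsq hnum hlin
    · obtain ⟨F, _, _, m, hm, hF, ⟨f⟩⟩ := h
      have hlin := lin' hS hord he f
      have hc : Fintype.card Lie.chevG2.Idx = 14 := by rfl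
      rw [hc, hF] at hlin
      have ho := T.ree F m hm hF
      rw [← Nat.card_congr f.toEquiv] at ho
      exact Fam.ree hpp hm ho hd hsq hnum hlin
    · obtain ⟨F, _, _, m, hm, hF, ⟨f⟩⟩ := h
      have hlin := lin' hS hord he f
      have hc : Fintype.card Lie.chevF4.Idx = 52 := by rfl
      rw [hc, hF] at hlin
      have ho := T.tf4 F m hm hF
      rw [← Nat.card_congr f.toEquiv] at ho
      exact Fam.tf4 hpp hm ho hd hsq hnum hlin
    · exact key .tits (by decide) h
  · exfalso
    rcases h with h | h | h | h | h | h | h | h | h | h | h | h | h | h | h | h | h | h | h | h | h | h | h | h | h | h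
    · exact key .m11 (by decide) h
    · exact key .m12 (by decide) h
    · exact key .m22 (by decide) h
    · exact key .m23 (by decide) h
    · exact key .m24 (by decide) h
    · exact key .j1 (by decide) h
    · exact key .j2 (by decide) h
    · exact key .j3 (by decide) h
    · exact key .j4 (by decide) h
    · exact key .co1 (by decide) h
    · exact key .co2 (by decide) h
    · exact key .co3 (by decide) h
    · exact key .mcl (by decide) h
    · exact key .hs (by decide) h
    · exact key .suz (by decide) h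
    · exact key .he (by decide) h
    · exact key .ru (by decide) h
    · exact key .on (by decide) h
    · exact key .ly (by decide) h
    · exact key .fi22 (by decide) h
    · exact key .fi23 (by decide) h
    · exact key .fi24 (by decide) h
    · exact key .hn (by decide) h
    · exact key .th (by decide) h
    · exact key .b (by decide) h
    · exact key .m (by decide) h

end Cfsg.Agent.H570.Known
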