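import Cfsg.Agent.H570.Known

/-!
The simple groups with less than `p ^ 2` Sylow `p`-subgroups.
-/

set_option autoImplicit false

namespace Cfsg.Agent.H570.List

open Subgroup Cfsg.Agent.H570.Data Cfsg.Agent.H570.Numbers Cfsg.Agent.H570.Known Cfsg.Agent.OrdDiv
  Cfsg.Agent.SmallSimple

universe u

section

variable {S : Type*} [Group S] [Finite S] [IsSimpleGroup S] {p : ℕ} [hp : Fact p.Prime]

/-- `PSL_2(p)` -/
theorem ord_a (hS : ¬ IsMulCommutative S) {F : Type} [Field F] [Fintype F] (hF : Fintype.card F = p)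
    (f : S ≃* Matrix.ProjectiveSpecialLinearGroup (Fin 2) F) :
    5 ≤ p ∧ 2 * Nat.card S = p * (p ^ 2 - 1) := by
  have ho := card_psl2 F
  rw [← Nat.card_congr f.toEquiv, hF] at ho
  have hpp := hp.out
  have h5 : 5 ≤ p := by
    by_contra hcon
    have h2 := hpp.two_le
    have h4 : p = 2 ∨ p = 3 ∨ p = 4 := by omega
    rcases h4 with rfl | rfl | rfl
    · norm_num at ho
      have := EvenOrder.four_dvd_card hS (by rw [ho]; norm_num)
      rw [ho] at this
      norm_num at this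
    · norm_num at ho
      have ho2 : Nat.card S = 12 := by omega
      obtain ⟨e, κ, he2, hed, hκ, hcard, hn1, hmod, hA⟩ :=
        exists_data hS (p := 3) (by rw [ho2]; norm_num) (by rw [ho2]; norm_num)
      rw [ho2] at hcard
      have h5 : 2 * 1 ≤ e * κ := Nat.mul_le_mul he2 hκ
      have h6 : 4 * (3 * 2) ≤ Nat.card (Sylow 3 S) * (3 * (e * κ)) := by
        apply Nat.mul_le_mul hn1; omega
      omega
    · exact absurd hpp (by norm_num)
  refine ⟨h5, ?_⟩
  have hodd : Odd p := hpp.odd_of_ne_two (by omega)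
  have hg : Nat.gcd 2 (p - 1) = 2 := by
    obtain ⟨s, hs⟩ := hodd
    exact Nat.gcd_eq_left ⟨s, by omega⟩
  rw [hg] at ho
  exact ho

omit hp in
/-- `PSL_3(3)` -/
theorem ord_d {F : Type} [Field F] [Fintype F] (hF : Fintype.card F = 3)
    (f : S ≃* Matrix.ProjectiveSpecialLinearGroup (Fin 3) F) : Nat.card S = 5616 := by
  have ho := S0243.result (F := F) hF 3 (by norm_num)
  rw [← Nat.card_congr f.toEquiv, Fin.prod_univ_three] at ho
  simp only [Fin.val_zero, Fin.val_one, Fin.val_two] at ho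
  norm_num at ho
  omega

omit hp in
theorem ord_two_pow {F : Type} [Field F] [Fintype F] {q : ℕ} (hF : Fintype.card F = q) (hq : Even q)
    (hq0 : 0 < q) (f : S ≃* Matrix.ProjectiveSpecialLinearGroup (Fin 2) F) :
    Nat.card S = q * (q ^ 2 - 1) := by
  have ho := card_psl2 F
  rw [← Nat.card_congr f.toEquiv, hF] at ho
  have hg : Nat.gcd 2 (q - 1) = 1 := by
    obtain ⟨s, hs⟩ := hq
    have : Odd (q - 1) := ⟨s - 1, by omega⟩
    exact (Nat.coprime_two_left).2 this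
  rw [hg, one_mul] at ho
  exact ho

/-- `PSL_2(p - 1)` -/
theorem ord_b (h3 : 3 < p) {F : Type} [Field F] [Fintype F] (hF : Fintype.card F = p - 1)
    (f : S ≃* Matrix.ProjectiveSpecialLinearGroup (Fin 2) F) :
    Nat.card S = p * (p - 1) * (p - 2) := by
  have hodd : Odd p := hp.out.odd_of_ne_two (by omega)
  have hev : Even (p - 1) := by
    obtain ⟨s, hs⟩ := hodd
    exact ⟨s, by omega⟩
  rw [ord_two_pow hF hev (by omega) f]
  obtain ⟨r, rfl⟩ : ∃ r, p = r + 2 := ⟨p - 2, by omega⟩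
  rw [show r + 2 - 1 = r + 1 by omega, show r + 2 - 2 = r by omega]
  have : (r + 1) ^ 2 - 1 = r * (r + 2) := by
    have : (r + 1) ^ 2 = r * (r + 2) + 1 := by ring
    omega
  rw [this]
  ring

/-- `PSL_2(p + 1)` -/
theorem ord_c (h3 : 3 < p) {F : Type} [Field F] [Fintype F] (hF : Fintype.card F = p + 1)
    (f : S ≃* Matrix.ProjectiveSpecialLinearGroup (Fin 2) F) :
    Nat.card S = p * (p + 1) * (p + 2) := by
  have hodd : Odd p := hp.out.odd_of_ne_two (by omega)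
  have hev : Even (p + 1) := by
    obtain ⟨s, hs⟩ := hodd
    exact ⟨s + 1, by omega⟩
  rw [ord_two_pow hF hev (by omega) f]
  have : (p + 1) ^ 2 - 1 = p * (p + 2) := by
    have : (p + 1) ^ 2 = p * (p + 2) + 1 := by ring
    omega
  rw [this]
  ring

/-- the exact values -/
def Val (p n : ℕ) : Prop :=
  (5 ≤ p ∧ n = p + 1) ∨ (p = 13 ∧ n = 144) ∨
    (5 ≤ p ∧ (∃ k : ℕ, p = 2 ^ k + 1) ∧ 2 * n = (p - 1) * (p - 2)) ∨
    (5 ≤ p ∧ (∃ k : ℕ, p + 1 = 2 ^ k) ∧ 2 * n = (p + 1) * (p + 2))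

theorem five_le (h3 : 3 < p) : 5 ≤ p := by
  have h4 : p ≠ 4 := by
    rintro rfl
    exact absurd hp.out (by norm_num)
  omega

theorem val_of (hS : ¬ IsMulCommutative S) (h : List' p S) :
    OrdList p (Nat.card S) ∧ Val p (Nat.card (Sylow p S)) := by
  rcases h with ⟨F, _, _, hF, ⟨f⟩⟩ | ⟨h13, F, _, _, hF, ⟨f⟩⟩ | ⟨h3, hk, F, _, _, hF, ⟨f⟩⟩ |
    ⟨h3, hk, F, _, _, hF, ⟨f⟩⟩
  · obtain ⟨h5, ho⟩ := ord_a hS hF f
    exact ⟨Or.inl ho, Or.inl ⟨h5, card_a hS h5 ho⟩⟩
  · have ho := ord_d hF f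
    refine ⟨Or.inr (Or.inl ⟨h13, ho⟩), Or.inr (Or.inl ⟨h13, ?_⟩)⟩
    subst h13
    exact card_d hS ho
  · have ho := ord_b h3 hF f
    have h5 := five_le h3
    exact ⟨Or.inr (Or.inr (Or.inl ho)), Or.inr (Or.inr (Or.inl ⟨h5, hk, card_b hS h5 ho⟩))⟩
  · have ho := ord_c h3 hF f
    have h5 := five_le h3
    exact ⟨Or.inr (Or.inr (Or.inr ho)), Or.inr (Or.inr (Or.inr ⟨h5, hk, card_c hS h5 ho⟩))⟩

omit hp in
theorem Val.lt {n : ℕ} (h : Val p n) : n < p ^ 2 := by
  rcases h with ⟨h5, h⟩ | ⟨h5, h⟩ | ⟨h5, -, h⟩ | ⟨h5, -, h⟩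
  · nlinarith
  · rw [h, h5]; norm_num
  · obtain ⟨r, rfl⟩ : ∃ r, p = r + 5 := ⟨p - 5, by omega⟩
    rw [show r + 5 - 1 = r + 4 by omega, show r + 5 - 2 = r + 3 by omega] at h
    nlinarith
  · nlinarith

end

variable {p : ℕ} [hp : Fact p.Prime]

/-- **The theorem on simple groups.** -/
theorem list_of (T : OrderTable.{u})
    (hK : ∀ (X : Type u) [Group X] [Finite X] [IsSimpleGroup X], IsKnownSimple' X) :
    ∀ (N : ℕ) (S : Type u) [Group S] [Finite S] [IsSimpleGroup S], ¬ IsMulCommutative S →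
      Nat.card S = N → p ∣ Nat.card S → Nat.card (Sylow p S) < p ^ 2 → List' p S := by
  intro N
  induction N using Nat.strong_induction_on with
  | _ N ih =>
    intro S _ _ _ hS hN hd hn
    obtain ⟨e, he, hnum⟩ := exists_num hS hd hn (by
      intro X _ _ _ hX hlt hdX hnX
      exact (val_of hX (ih (Nat.card X) (by rw [← hN]; exact hlt) X hX rfl hdX hnX)).1)
    exact known T hS (hK S) hd (not_sq_dvd hS hd hn) (fun P => S4343.result hS p hd hn P) he hnum

theorem iff_list (T : OrderTable.{u})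
    (hK : ∀ (X : Type u) [Group X] [Finite X] [IsSimpleGroup X], IsKnownSimple' X)
    (S : Type u) [Group S] [Finite S] [IsSimpleGroup S] (hS : ¬ IsMulCommutative S)
    (hd : p ∣ Nat.card S) : Nat.card (Sylow p S) < p ^ 2 ↔ List' p S :=
  ⟨fun h => list_of T hK _ S hS rfl hd h, fun h => (val_of hS h).2.lt⟩

end Cfsg.Agent.H570.List
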