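import Cfsg.Agent.H570.Arith
import Cfsg.Agent.Blocks.ExistsModular
import Cfsg.Agent.SmallSimple.TheoremB
import Cfsg.Agent.SmallSimple.LargePrime
import Cfsg.Agent.SmallSimple.DetKernel

/-!
A simple group with `n = 1 + k p < p ^ 2` Sylow `p`-subgroups of order `p`: if `C(P) ≠ P` then
`n = (p - b) (p + a)` with `a b = p - 1`.
-/

set_option autoImplicit false

open Cfsg Subgroup

namespace Cfsg.Agent.H570.PartA

open Cfsg.Agent.SmallSimple Cfsg.Agent.H570.Arith Cfsg.Agent.Characters.Core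

universe u

variable {G : Type u} [Group G] [Finite G]

/-- Divisibility from the integrality of central characters, summed over several characters. -/
theorem dvd_of_sum_chars {ι : Type*} (X : Finset ι) (χ : ι → G → ℂ)
    (hχ : ∀ i ∈ X, IsIrrCharacter G (χ i)) {z : ℕ} (hz : ∀ i ∈ X, χ i 1 = z) (hz0 : 0 < z)
    (x : G) {s : ℤ} (hs : ∑ i ∈ X, χ i x = s) :
    z ∣ (centralizer ({x} : Set G)).index * s.natAbs := by
  set j := (centralizer ({x} : Set G)).index with hj
  have h1 : IsIntegral ℤ (∑ i ∈ X, centralChar (χ i) x) :=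
    IsIntegral.sum _ fun i hi =>
      Cfsg.Agent.Blocks.CentralScalar.isIntegral_centralChar (hχ i hi) _
  have h2 : ∑ i ∈ X, centralChar (χ i) x = (j : ℂ) * s / z := by
    rw [← hs, Finset.mul_sum, Finset.sum_div]
    refine Finset.sum_congr rfl fun i hi => ?_
    rw [centralChar, hz i hi]
  rw [h2] at h1
  apply Cfsg.Agent.Characters.DegreeBounds.nat_dvd_of_isIntegral_div hz0.ne'
  rcases Int.natAbs_eq s with h | h
  · have h5 : (((j * s.natAbs : ℕ) : ℂ) / (z : ℂ)) = (j : ℂ) * s / z := by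
      have h6 : (s : ℂ) = (s.natAbs : ℂ) := by
        have := congrArg (fun t : ℤ => (t : ℂ)) h
        simpa using this
      rw [h6]; push_cast; ring
    rw [h5]; exact h1
  · have h5 : (((j * s.natAbs : ℕ) : ℂ) / (z : ℂ)) = -((j : ℂ) * s / z) := by
      have h6 : (s : ℂ) = -(s.natAbs : ℂ) := by
        have := congrArg (fun t : ℤ => (t : ℂ)) h
        rw [Int.cast_neg, Int.cast_natCast] at this
        exact this
      rw [h6]; push_cast; ring
    rw [h5]; exact h1.neg

/-- The main result of Part A. -/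
theorem partA [IsSimpleGroup G] (hG : ¬ IsMulCommutative G) {p : ℕ} [hp : Fact p.Prime]
    (hp2 : p ≠ 2) {P : Sylow p G} (hP : Nat.card P = p) {e k : ℕ} {K : Subgroup G}
    (hloc : PrimeLocal.IsLocal p P e K) (hn : Nat.card (Sylow p G) = 1 + k * p) (hk : k < p)
    (hK : Nat.card K ≠ 1) : 17 ≤ p ∧ ∃ a b, AB p k a b ∧ 3 ≤ a ∧ b ∣ e := by
  classical
  have hpp := hp.out
  have hP' : Nat.card (P : Subgroup G) = p := hP
  have hp2' : 2 ≤ p := hpp.two_le
  have he2 : 2 ≤ e := hloc.one_lt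
  obtain ⟨t, ht⟩ := hloc.dvd_pred
  have ht' := ht.symm
  obtain ⟨M, hM⟩ := Blocks.ExistsModular.exists_isPModular hpp
  obtain ⟨NE, X, ε, d, S, -, hNX, hNE, hX, hε, hd, h1, hval, hexc, hdisj, hrel⟩ :=
    TheoremB.theoremB p hp2 M hM P hP e t (LargePrime.relIndex_eq hloc hpp.pos) ht'
  have hpG : p ∣ Nat.card G := hP' ▸ Subgroup.card_subgroup_dvd_card _
  have hq5 : 5 ≤ Nat.card (Sylow p G) := Embed.five_le_card_sylow hG hpG
  have hk1 : 1 ≤ k := by
    rcases Nat.eq_zero_or_pos k with h | h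
    · rw [h] at hn; omega
    · exact h
  have hep : e < p := by
    have := Nat.le_of_dvd (by omega) hloc.dvd_pred
    omega
  have ht0 : 0 < t := by
    rcases Nat.eq_zero_or_pos t with h | h
    · rw [h, mul_zero] at ht; omega
    · exact h
  -- the index of the centralizer
  have hidx : (centralizer (P : Set G)).index = (1 + k * p) * e := by
    have h2 := (centralizer (P : Set G)).card_mul_index
    rw [hloc.card_centralizer, hloc.card_eq] at h2
    have hK0 : 0 < Nat.card K := Nat.card_pos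
    apply Nat.eq_of_mul_eq_mul_left (show 0 < p * Nat.card K by positivity)
    rw [h2, hn]; ring
  have hidx' : ∀ x ∈ (P : Subgroup G), x ≠ 1 →
      (centralizer ({x} : Set G)).index = (1 + k * p) * e := by
    intro x hx hx1
    rw [LargePrime.centralizer_eq hpp hP' hx hx1]
    exact hidx
  obtain ⟨x₀, hx₀, hx₀1⟩ : ∃ x ∈ (P : Subgroup G), x ≠ 1 := by
    have hnt : Nontrivial (P : Subgroup G) := by
      rw [← Finite.one_lt_card_iff_nontrivial, hP']
      exact hpp.one_lt
    obtain ⟨x, hx⟩ := exists_ne (1 : (P : Subgroup G))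
    exact ⟨x, x.2, fun h => hx (Subtype.ext h)⟩
  have h1p : ¬ p ∣ orderOf (1 : G) := by
    rw [orderOf_one]; exact hpp.one_lt.ne' ∘ Nat.dvd_one.1
  have hvalx : ∀ χ ∈ NE, ∀ x ∈ (P : Subgroup G), x ≠ 1 → (χ : G → ℂ) x = ε χ := by
    intro χ hχ x hx hx1
    have := hval χ hχ x hx hx1 1 (one_mem _) h1p
    rwa [mul_one] at this
  have hnc : ∃ a b : G, a * b ≠ b * a := by
    by_contra h
    push Not at h
    exact hG ⟨⟨h⟩⟩
  have hKbot : K ≠ ⊥ := by
    rintro rfl
    exact hK Subgroup.card_bot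
  have hcop : p.Coprime (Nat.card K) := (hpp.coprime_iff_not_dvd).2 hloc.not_dvd
  have hsumP : ∀ (inst : Fintype (P : Subgroup G)) (f : G → ℂ) (c : ℂ),
      (∀ x ∈ (P : Subgroup G), x ≠ 1 → f x = c) →
      ∑ x : (P : Subgroup G), f x = f 1 + ((p : ℂ) - 1) * c := by
    intro inst f c hc
    rw [← Finset.add_sum_erase _ _ (Finset.mem_univ (1 : (P : Subgroup G)))]
    congr 1
    have h2 : ∀ x ∈ Finset.univ.erase (1 : (P : Subgroup G)), f (x : G) = c := fun x hx =>
      hc x x.2 fun h => Finset.ne_of_mem_erase hx (Subtype.ext h)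
    rw [Finset.sum_congr rfl h2, Finset.sum_const, nsmul_eq_mul,
      Finset.card_erase_of_mem (Finset.mem_univ _), Finset.card_univ, ← Nat.card_eq_fintype_card,
      hP', Nat.cast_sub hpp.one_le, Nat.cast_one]
  -- degrees
  have hdeg : ∀ χ : IrrCharacter G, ∃ m : ℕ, (χ : G → ℂ) 1 = m ∧ 0 < m := fun χ =>
    LargePrime.exists_degree χ.2
  choose m hm hm0 using hdeg
  obtain ⟨χ₁, hχ₁, hχ₁1, hχ₁ε⟩ := h1
  have hm₁ : m χ₁ = 1 := by
    have h2 := hm χ₁
    rw [hχ₁1, Pi.one_apply] at h2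
    exact_mod_cast h2.symm
  have hne1 : ∀ χ : IrrCharacter G, χ ≠ χ₁ → m χ ≠ 1 := by
    intro χ hχ h
    apply hχ
    apply Subtype.ext
    rw [hχ₁1]
    exact SelfCentSum.eq_one_of_apply_one (Embed.card_not_prime_of_not_comm hG) χ.2
      (by rw [hm, h]; simp)
  -- divisibility of the degrees of the non-exceptional characters
  have hdvd : ∀ χ ∈ NE, m χ ∣ (1 + k * p) * e := by
    intro χ hχ
    have h2 := dvd_of_sum_chars {χ} (fun ψ => (ψ : G → ℂ)) (fun ψ _ => ψ.2) (z := m χ)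
      (fun ψ hψ => by rw [Finset.mem_singleton.1 hψ]; exact hm χ) (hm0 χ) x₀ (s := ε χ)
      (by rw [Finset.sum_singleton]; exact hvalx χ hχ x₀ hx₀ hx₀1)
    rw [hidx' x₀ hx₀ hx₀1] at h2
    rcases hε χ hχ with h | h
    · rw [h] at h2; simpa using h2
    · rw [h] at h2; simpa using h2
  -- shapes
  have hshape : ∀ χ ∈ NE, χ ≠ χ₁ → (ε χ = 1 ∧ ∃ u, 2 ≤ u ∧ m χ = 1 + p * u) ∨
      (ε χ = -1 ∧ ∃ w, 3 ≤ w ∧ m χ + 1 = p * w) := by
    intro χ hχ hne
    rcases hε χ hχ with h | h
    · left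
      refine ⟨h, ?_⟩
      obtain ⟨j, hj, -⟩ := @LargePrime.exists_avg G _ _ _ χ.2 (P : Subgroup G) (Fintype.ofFinite _)
      rw [hsumP (Fintype.ofFinite _) χ 1 (fun x hx hx1 => by
        rw [hvalx χ hχ x hx hx1, h]; simp), hm, hP'] at hj
      have hj' : m χ + p = 1 + p * j := by
        have : ((m χ + p : ℕ) : ℂ) = ((1 + p * j : ℕ) : ℂ) := by
          push_cast
          linear_combination hj
        exact_mod_cast this
      have hj1 : j ≠ 0 := by
        rintro rfl
        omega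
      obtain ⟨u, rfl⟩ := Nat.exists_eq_succ_of_ne_zero hj1
      have hm' : m χ = 1 + p * u := by
        have : p * u.succ = p * u + p := by rw [Nat.succ_eq_add_one]; ring
        omega
      refine ⟨u, ?_, hm'⟩
      by_contra hu
      obtain ⟨σ, hσ, -⟩ := DetKernel.exists_hom_SL_of_const hnc P hP
        (isIrr_isCharacter χ.2) ⟨x₀, by
          rw [hvalx χ hχ x₀ hx₀ hx₀1, h, hm]
          intro hcon
          apply hne1 χ hne
          exact_mod_cast hcon.symm⟩ (δ := 1)
        (fun x hx hx1 y hy hyp => by rw [hval χ hχ x hx hx1 y hy hyp, h]) (a := u)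
        (Or.inl ⟨Or.inr rfl, by rw [hm, hm']; push_cast; ring⟩) K hloc.le_centralizer hcop
      exact hKbot (DetKernel.eq_bot_of_injective (by omega) σ hσ)
    · right
      refine ⟨h, ?_⟩
      obtain ⟨j, hj, -⟩ := @LargePrime.exists_avg G _ _ _ χ.2 (P : Subgroup G) (Fintype.ofFinite _)
      rw [hsumP (Fintype.ofFinite _) χ (-1) (fun x hx hx1 => by
        rw [hvalx χ hχ x hx hx1, h]; simp), hm, hP'] at hj
      have hj' : m χ + 1 = p * (j + 1) := by
        have : ((m χ + 1 : ℕ) : ℂ) = ((p * (j + 1) : ℕ) : ℂ) := by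
          push_cast
          linear_combination hj
        exact_mod_cast this
      refine ⟨j + 1, ?_, hj'⟩
      by_contra hu
      obtain ⟨σ, hσ, -⟩ := DetKernel.exists_hom_SL_of_const hnc P hP
        (isIrr_isCharacter χ.2) ⟨x₀, by
          rw [hvalx χ hχ x₀ hx₀ hx₀1, h, hm]
          intro hcon
          have : (-1 : ℤ) = m χ := by exact_mod_cast hcon
          omega⟩ (δ := -1)
        (fun x hx hx1 y hy hyp => by rw [hval χ hχ x hx hx1 y hy hyp, h]) (a := j)
        (Or.inr ⟨rfl, by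
          have : ((m χ + 1 : ℕ) : ℂ) = ((p * (j + 1) : ℕ) : ℂ) := by rw [hj']
          rw [hm]
          push_cast at this
          exact this⟩) K hloc.le_centralizer hcop
      exact hKbot (DetKernel.eq_bot_of_injective (by omega) σ hσ)
  -- the exceptional characters
  obtain ⟨Θ, hΘ⟩ : X.Nonempty := Finset.card_ne_zero.1 (by omega)
  have hrel1 : ∀ Θ' ∈ X, ∑ χ ∈ NE, ε χ * (m χ : ℤ) = d * m Θ' := by
    intro Θ' hΘ'
    have h2 := hrel Θ' hΘ' 1 h1p
    rw [hm Θ', Finset.sum_congr rfl (fun χ _ => by rw [hm χ])] at h2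
    exact_mod_cast h2
  have hmX : ∀ Θ' ∈ X, m Θ' = m Θ := by
    intro Θ' hΘ'
    have h2 := (hrel1 Θ' hΘ').symm.trans (hrel1 Θ hΘ)
    rcases hd with h | h <;> rw [h] at h2 <;> omega
  -- the sum of the values of the exceptional characters
  have hfd := PrimeDual.finite_dual hpp hP
  have hftP := Fintype.ofFinite P
  have hft := Fintype.ofFinite (P →* ℂˣ)
  have hbU : X.biUnion S = Finset.univ.erase 1 := by
    apply Finset.eq_of_subset_of_card_le
    · intro l hl
      rw [Finset.mem_biUnion] at hl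
      obtain ⟨Θ', hΘ', hl⟩ := hl
      rw [Finset.mem_erase]
      refine ⟨?_, Finset.mem_univ _⟩
      rintro rfl
      exact (hexc Θ' hΘ').2.1 hl
    · rw [Finset.card_erase_of_mem (Finset.mem_univ _), Finset.card_univ,
        ← Nat.card_eq_fintype_card, PrimeDual.card_dual hpp hP, Finset.card_biUnion
        (fun Θ₁ h₁ Θ₂ h₂ hne => hdisj Θ₁ h₁ Θ₂ h₂ hne),
        Finset.sum_congr rfl (fun Θ' hΘ' => (hexc Θ' hΘ').1), Finset.sum_const, smul_eq_mul, hX, ht,
        mul_comm]
  have hXsum : ∑ Θ' ∈ X, (Θ' : G → ℂ) x₀ = ((-d : ℤ) : ℂ) := by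
    have h2 : ∀ Θ' ∈ X, (Θ' : G → ℂ) x₀ = d * ∑ l ∈ S Θ', ((l ⟨x₀, hx₀⟩ : ℂˣ) : ℂ) := by
      intro Θ' hΘ'
      have h3 := (hexc Θ' hΘ').2.2 ⟨x₀, hx₀⟩ (fun h => hx₀1 (congrArg Subtype.val h)) 1
        (one_mem _) h1p
      rwa [mul_one] at h3
    rw [Finset.sum_congr rfl h2, ← Finset.mul_sum,
      ← Finset.sum_biUnion (fun Θ₁ h₁ Θ₂ h₂ hne => hdisj Θ₁ h₁ Θ₂ h₂ hne), hbU]
    have h4 := PrimeDual.sum_dual_eq_zero hpp hP
      (x := (⟨x₀, hx₀⟩ : P)) (fun h => hx₀1 (congrArg Subtype.val h))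
    rw [← Finset.add_sum_erase _ _ (Finset.mem_univ (1 : P →* ℂˣ))] at h4
    rw [MonoidHom.one_apply, Units.val_one] at h4
    push_cast
    linear_combination d * h4
  have hzd : m Θ ∣ (1 + k * p) * e := by
    have h2 := dvd_of_sum_chars X (fun ψ => (ψ : G → ℂ)) (fun ψ _ => ψ.2) (z := m Θ)
      (fun ψ hψ => by rw [← hmX ψ hψ]; exact hm ψ) (hm0 Θ) x₀ (s := -d) hXsum
    rw [hidx' x₀ hx₀ hx₀1] at h2
    rcases hd with h | h
    · rw [h] at h2; simpa using h2
    · rw [h] at h2; simpa using h2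
  -- congruence
  have hcong : (p : ℤ) ∣ d * m Θ - e := by
    have h2 : (e : ℤ) = ∑ χ ∈ NE, 1 := by rw [Finset.sum_const, hNE]; simp
    rw [← hrel1 Θ hΘ, h2, ← Finset.sum_sub_distrib]
    refine Finset.dvd_sum fun χ hχ => ?_
    by_cases hc : χ = χ₁
    · rw [hc, hχ₁ε, hm₁]; simp
    · rcases hshape χ hχ hc with ⟨h, u, -, hu⟩ | ⟨h, w, -, hw⟩
      · rw [h, hu]; push_cast; exact ⟨u, by ring⟩
      · rw [h]
        have : (m χ : ℤ) + 1 = p * w := by exact_mod_cast hw
        exact ⟨-w, by linear_combination -this⟩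
  obtain ⟨hS1, hS2, hS3⟩ := hexc Θ hΘ
  have hSne : (S Θ).Nonempty := by
    rw [← Finset.card_pos, hS1]; omega
  have hΘne : ∃ g, (Θ : G → ℂ) g ≠ (Θ : G → ℂ) 1 := by
    by_contra hcon
    push Not at hcon
    -- then `Θ` is constant, so `Θ = 1`, which is not exceptional
    have h2 : ∀ Θ' ∈ X, (Θ' : G → ℂ) 1 = (Θ : G → ℂ) 1 := fun Θ' hΘ' => by rw [hm, hm, hmX Θ' hΘ']
    have h3 : ∑ x ∈ (Finset.univ.erase (1 : P) : Finset P), (Θ : G → ℂ) (x : G) =
        d * (-(e : ℂ)) := by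
      have h4 : ∀ x ∈ (Finset.univ.erase (1 : P) : Finset P), (Θ : G → ℂ) (x : G) =
          d * ∑ l ∈ S Θ, (l x : ℂ) := by
        intro x hx
        have := hS3 x (Finset.ne_of_mem_erase hx) 1 (one_mem _) h1p
        rwa [mul_one] at this
      rw [Finset.sum_congr rfl h4, ← Finset.mul_sum, Finset.sum_comm]
      congr 1
      refine (Finset.sum_congr rfl (g := fun _ => (-1 : ℂ)) fun l hl => ?_).trans ?_
      · refine LargePrime.sum_hom ?_
        rintro rfl
        exact hS2 hl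
      · rw [Finset.sum_const, hS1]
        simp
    simp only [hcon] at h3
    rw [Finset.sum_const,
      Finset.card_erase_of_mem (Finset.mem_univ _), Finset.card_univ,
      ← Nat.card_eq_fintype_card, hP, hm Θ] at h3
    have h4 : ((p - 1 : ℕ) : ℤ) * m Θ = -(d * e) := by
      have : (((p - 1 : ℕ) * m Θ : ℤ) : ℂ) = ((-(d * e) : ℤ) : ℂ) := by
        rw [nsmul_eq_mul] at h3
        push_cast
        rw [h3]; ring
      exact_mod_cast this
    have h5 : m Θ ≠ 1 := by
      apply hne1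
      rintro rfl
      exact Finset.disjoint_left.1 hNX hχ₁ hΘ
    have h6 := hm0 Θ
    have h7 : (p - 1) * 2 ≤ (p - 1) * m Θ := Nat.mul_le_mul_left _ (by omega)
    have h8 : ((p - 1 : ℕ) : ℤ) * m Θ = (((p - 1) * m Θ : ℕ) : ℤ) := by push_cast; rfl
    rw [h8] at h4
    rcases hd with h | h <;> rw [h] at h4 <;> omega
  have hz : ExcShape p e d (m Θ) := by
    rcases hd with h | h
    · left
      refine ⟨h, ?_⟩
      rw [h, one_mul] at hcong
      have h2 : ∃ j : ℕ, m Θ = e + p * j := by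
        obtain ⟨c, hc⟩ := hcong
        have h3 : 0 ≤ c := by
          by_contra hneg
          push Not at hneg
          have h4 : (p : ℤ) * c ≤ (p : ℤ) * (-1) :=
            mul_le_mul_of_nonneg_left (by omega) (by positivity)
          have h5 : (0 : ℤ) < m Θ := by exact_mod_cast hm0 Θ
          have h6 : (e : ℤ) < p := by exact_mod_cast hep
          linarith
        obtain ⟨j, rfl⟩ := Int.eq_ofNat_of_zero_le h3
        refine ⟨j, ?_⟩
        have : (m Θ : ℤ) = e + p * j := by linarith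
        exact_mod_cast this
      obtain ⟨j, hj⟩ := h2
      refine ⟨j, ?_, hj⟩
      by_contra hcon
      obtain ⟨σ, hσ, -⟩ := DetKernel.exists_hom_SL_of_sum hnc P hP
        (isIrr_isCharacter Θ.2) hΘne (S Θ) hS2 hSne hS3 (a := j)
        (Or.inl ⟨h, by rw [hm, hj, hS1]; push_cast; ring⟩) K hloc.le_centralizer hcop
      exact hKbot (DetKernel.eq_bot_of_injective (by omega) σ hσ)
    · right
      refine ⟨h, ?_⟩
      rw [h] at hcong
      have h2 : ∃ j : ℕ, m Θ + e = p * (j + 1) := by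
        obtain ⟨c, hc⟩ := hcong
        have h3 : c < 0 := by
          by_contra hneg
          push Not at hneg
          have h4 : 0 ≤ (p : ℤ) * c := mul_nonneg (by positivity) hneg
          have h5 : (0 : ℤ) < m Θ := by exact_mod_cast hm0 Θ
          have h6 : (0 : ℤ) ≤ e := by positivity
          linarith
        obtain ⟨j, hj⟩ := Int.eq_ofNat_of_zero_le (show 0 ≤ -c - 1 by omega)
        refine ⟨j, ?_⟩
        have h4 : c = -(j + 1) := by omega
        rw [h4] at hc
        have : (m Θ : ℤ) + e = p * (j + 1) := by linarith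
        exact_mod_cast this
      obtain ⟨j, hj⟩ := h2
      refine ⟨j + 1, ?_, hj⟩
      by_contra hcon
      obtain ⟨σ, hσ, -⟩ := DetKernel.exists_hom_SL_of_sum hnc P hP
        (isIrr_isCharacter Θ.2) hΘne (S Θ) hS2 hSne hS3 (a := j)
        (Or.inr ⟨h, by
          have : ((m Θ + e : ℕ) : ℂ) = ((p * (j + 1) : ℕ) : ℂ) := by rw [hj]
          rw [hm, hS1]
          push_cast at this
          exact this⟩) K hloc.le_centralizer hcop
      exact hKbot (DetKernel.eq_bot_of_injective (by omega) σ hσ)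
  exact Arith.main hχ₁ hpp ht' he2 hk1 hk hNE hm₁ hχ₁ε hshape hdvd hz hzd (hrel1 Θ hΘ)

end Cfsg.Agent.H570.PartA
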