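import Cfsg.Agent.H570.Gen

/-!
The simple quotient of a group generated by its Sylow `p`-subgroups of order `p`.
-/

set_option autoImplicit false

namespace Cfsg.Agent.H570.Quot

open Subgroup Cfsg.Agent.H571.SylowNumber Cfsg.Agent.H570.PNil Cfsg.Agent.H570.Gen

universe u

variable {p : ℕ} [hp : Fact p.Prime]

/-- The number of Sylow `p`-subgroups of a non-abelian simple group of order divisible by `p`. -/
theorem card_sylow_ne_one {S : Type*} [Group S] [Finite S] [IsSimpleGroup S]
    (hS : ¬ IsMulCommutative S) (hd : p ∣ Nat.card S) : Nat.card (Sylow p S) ≠ 1 := by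
  intro h1
  obtain ⟨P⟩ : Nonempty (Sylow p S) := inferInstance
  have hsub : Subsingleton (Sylow p S) := (Nat.card_eq_one_iff_unique.1 h1).1
  have hN : (P : Subgroup S).Normal := Sylow.normal_of_subsingleton P
  rcases hN.eq_bot_or_eq_top with h | h
  · have h2 : ¬ p ∣ (P : Subgroup S).index := P.not_dvd_index
    rw [h, Subgroup.index_bot] at h2
    exact h2 hd
  · -- `S` is a `p`-group
    have h2 : IsPGroup p (⊤ : Subgroup S) := h ▸ P.isPGroup'
    have h3 : IsPGroup p S := h2.of_equiv Subgroup.topEquiv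
    have h4 : Nontrivial (Subgroup.center S) := h3.center_nontrivial
    have h5 : (Subgroup.center S).Normal := inferInstance
    rcases h5.eq_bot_or_eq_top with h6 | h6
    · rw [h6] at h4
      exact not_nontrivial _ h4
    · apply hS
      refine ⟨⟨fun a b => ?_⟩⟩
      have : a ∈ Subgroup.center S := h6 ▸ Subgroup.mem_top a
      exact (Subgroup.mem_center_iff.1 this b).symm

theorem not_dvd_sup {T : Type*} [Group T] [Finite T] {X M : Subgroup T}
    [hM : M.Normal] (hX : ¬ p ∣ Nat.card X) (hMp : ¬ p ∣ Nat.card M) :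
    ¬ p ∣ Nat.card (X ⊔ M : Subgroup T) := by
  intro h
  have h1 := card_mul_relIndex (G := T) (le_sup_right : M ≤ X ⊔ M)
  rw [Subgroup.relIndex_sup_right] at h1
  rw [← h1] at h
  rcases (hp.out.dvd_mul).1 h with h2 | h2
  · exact hMp h2
  · exact hX (h2.trans (Subgroup.relIndex_dvd_card _ _))

theorem exists_simple_quot {T : Type u} [Group T] [Finite T] (P : Sylow p T)
    (hP : Nat.card P = p)
    (hgen : ∀ X : Subgroup T, X.Normal → p ∣ Nat.card X → X = ⊤)
    (hnil : ¬ IsPNil p T) (hn : Nat.card (Sylow p T) < p ^ 2) :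
    ∃ M : Subgroup T, ∃ _ : M.Normal, IsSimpleGroup (T ⧸ M) ∧ ¬ IsMulCommutative (T ⧸ M) ∧
      p ∣ Nat.card (T ⧸ M) ∧ Nat.card (Sylow p (T ⧸ M)) = Nat.card (Sylow p T) ∧
      ∀ X : Subgroup T, X.Normal → ¬ p ∣ Nat.card X → X ≤ M := by
  have hpp := hp.out
  have hpT : p ∣ Nat.card T := by
    have : Nat.card (P : Subgroup T) = p := hP
    rw [← this]
    exact Subgroup.card_subgroup_dvd_card _
  let 𝒮 : Set (Subgroup T) := {X | X.Normal ∧ ¬ p ∣ Nat.card X}
  have hne : 𝒮.Nonempty := by
    refine ⟨⊥, inferInstance, ?_⟩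
    rw [Subgroup.card_bot]
    exact fun h => hpp.one_lt.ne' (Nat.dvd_one.1 h)
  obtain ⟨M, hM⟩ := (Set.toFinite 𝒮).exists_maximal hne
  obtain ⟨hMn, hMp⟩ := hM.1
  have hmax : ∀ X : Subgroup T, X.Normal → ¬ p ∣ Nat.card X → M ≤ X → X = M := by
    intro X hX hXp hMX
    exact le_antisymm (hM.2 ⟨hX, hXp⟩ hMX) hMX
  have hle : ∀ X : Subgroup T, X.Normal → ¬ p ∣ Nat.card X → X ≤ M := by
    intro X hX hXp
    have h1 := hmax (X ⊔ M) inferInstance (not_dvd_sup hXp hMp) le_sup_right
    exact le_sup_left.trans h1.le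
  have hMtop : M ≠ ⊤ := by
    rintro rfl
    rw [Subgroup.card_top] at hMp
    exact hMp hpT
  have hcard : Nat.card T = Nat.card (T ⧸ M) * Nat.card M := Subgroup.card_eq_card_quotient_mul_card_subgroup M
  have hpQ : p ∣ Nat.card (T ⧸ M) := by
    rw [hcard] at hpT
    exact (hpp.dvd_mul.1 hpT).resolve_right hMp
  have hnt : Nontrivial (T ⧸ M) := by
    rw [← Finite.one_lt_card_iff_nontrivial]
    exact lt_of_lt_of_le hpp.one_lt (Nat.le_of_dvd Nat.card_pos hpQ)
  have hsimple : IsSimpleGroup (T ⧸ M) := by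
    refine { eq_bot_or_eq_top_of_normal := fun N hN => ?_ }
    have hcn : (N.comap (QuotientGroup.mk' M)).Normal := hN.comap _
    by_cases h : p ∣ Nat.card (N.comap (QuotientGroup.mk' M))
    · right
      have h1 := hgen _ hcn h
      have h2 := Subgroup.map_comap_eq_self_of_surjective (QuotientGroup.mk'_surjective M) N
      rw [← h2, h1, ← MonoidHom.range_eq_map, MonoidHom.range_eq_top]
      exact QuotientGroup.mk'_surjective M
    · left
      have h1 : M ≤ N.comap (QuotientGroup.mk' M) := by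
        intro x hx
        rw [Subgroup.mem_comap]
        have : QuotientGroup.mk' M x = 1 := (QuotientGroup.eq_one_iff x).2 hx
        rw [this]
        exact one_mem _
      have h2 := hmax _ hcn h h1
      have h3 := Subgroup.map_comap_eq_self_of_surjective (QuotientGroup.mk'_surjective M) N
      rw [← h3, h2]
      rw [Subgroup.map_eq_bot_iff, QuotientGroup.ker_mk']
  have hcomm : ¬ IsMulCommutative (T ⧸ M) := by
    intro h
    apply hnil
    refine ⟨M, hMn, hMp, ?_⟩
    have h1 : IsSimpleGroup (T ⧸ M) := hsimple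
    let _ : CommGroup (T ⧸ M) := { (inferInstance : Group (T ⧸ M)) with mul_comm := h.is_comm.comm }
    have h2 : (Nat.card (T ⧸ M)).Prime := IsSimpleGroup.prime_card
    have h3 := (Nat.prime_dvd_prime_iff_eq hpp h2).1 hpQ
    rw [Subgroup.index, ← h3]
  refine ⟨M, hMn, hsimple, hcomm, hpQ, ?_, hle⟩
  have h1 := card_sylow_eq_mul P M
  exact eq_of_dvd_of_modEq hpp.two_le (h1 ▸ Dvd.intro _ rfl) (card_sylow_modEq_one p _)
    (card_sylow_modEq_one p T) hn (card_sylow_ne_one hcomm hpQ) Nat.card_pos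

omit hp in
/-- Divisibility of the orders of the simple quotients. -/
theorem card_quot_dvd {G : Type u} [Group G] [Finite G] {L₁ L₂ : Subgroup G} (h : L₁ ≤ L₂)
    (M₁ : Subgroup L₁) [M₁.Normal] (M₂ : Subgroup L₂) [M₂.Normal]
    (hmax : ∀ X : Subgroup L₁, X.Normal → ¬ p ∣ Nat.card X → X ≤ M₁)
    (hM₂ : ¬ p ∣ Nat.card M₂) : Nat.card (L₁ ⧸ M₁) ∣ Nat.card (L₂ ⧸ M₂) := by
  let X : Subgroup L₁ := M₂.comap (Subgroup.inclusion h)
  have h1 : X ≤ M₁ := by
    apply hmax X inferInstance
    intro hd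
    apply hM₂
    refine hd.trans ?_
    exact Subgroup.card_dvd_of_injective ((Subgroup.inclusion h).subgroupComap M₂)
      (by
        intro a b hab
        have := congrArg (fun z : M₂ => ((z : L₂) : G)) hab
        exact Subtype.ext (Subtype.ext this))
  have h2 : M₁.index ∣ X.index := Subgroup.index_dvd_of_le h1
  have h3 : X.index ∣ M₂.index := by
    rw [Subgroup.index_comap]
    exact Subgroup.relIndex_dvd_index_of_normal _ _
  exact h2.trans h3

end Cfsg.Agent.H570.Quot
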